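import Cfsg.Agent.TwoGroups.UniqueInvolution
import Cfsg.Prelude.Def_CaseTheorems
import Cfsg.Prelude.Def_Transfer
import Mathlib

/-!
# Counting tools for bounding the sectional rank of a finite 2-group
-/

set_option autoImplicit false
set_option linter.all false

namespace Cfsg.Agent.Harada

universe u v

variable {S : Type u} [Group S]

/-- If the fibres of `f` on `X` are contained in cosets of `Y`, then `|X| ≤ |T| |X ∩ Y|`. -/
theorem card_le_mul_inter [Finite S] (X Y : Subgroup S) {T : Type v} [Finite T] (f : S → T)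
    (hf : ∀ x ∈ X, ∀ y ∈ X, f x = f y → x⁻¹ * y ∈ Y) :
    Nat.card X ≤ Nat.card T * Nat.card ↥(X ⊓ Y) := by
  have h1 : Nat.card (↥X ⧸ (Y.subgroupOf X)) ≤ Nat.card T := by
    refine Nat.card_le_card_of_injective (fun q => f (q.out : S)) fun p q h => ?_
    rw [← p.out_eq', ← q.out_eq', QuotientGroup.eq, Subgroup.mem_subgroupOf]
    exact hf _ p.out.2 _ q.out.2 h
  have h2 := (Y.subgroupOf X).card_mul_index
  have h3 : Nat.card (Y.subgroupOf X) = Nat.card ↥(X ⊓ Y) := by
    have h4 : (X ⊓ Y).subgroupOf X = Y.subgroupOf X := by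
      ext x; simp [Subgroup.mem_subgroupOf]
    rw [← h4]
    exact Nat.card_congr (Subgroup.subgroupOfEquivOfLe inf_le_left).toEquiv
  rw [Subgroup.index_eq_card, h3] at h2
  calc Nat.card X = Nat.card ↥(X ⊓ Y) * Nat.card (↥X ⧸ Y.subgroupOf X) := h2.symm
    _ ≤ Nat.card ↥(X ⊓ Y) * Nat.card T := Nat.mul_le_mul_left _ h1
    _ = _ := Nat.mul_comm _ _

/-- `H / N` is an elementary abelian 2-group. -/
structure Elem2 (H N : Subgroup S) : Prop where
  le : N ≤ H
  sq : ∀ h ∈ H, h * h ∈ N
  comm : ∀ g ∈ H, ∀ h ∈ H, g * h * g⁻¹ * h⁻¹ ∈ N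

theorem Elem2.conj {H N : Subgroup S} (e : Elem2 H N) {h n : S} (hh : h ∈ H) (hn : n ∈ N) :
    h * n * h⁻¹ ∈ N := by
  have := N.mul_mem (e.comm h hh n (e.le hn)) hn
  simpa using this

/-- Sectional 2-rank bounds from bounds on elementary abelian sections given inside `S`. -/
theorem sectional_of_bound {k : ℕ}
    (h : ∀ H N : Subgroup S, Elem2 H N → Nat.card H ≤ 2 ^ k * Nat.card N) [Finite S] :
    Cfsg.SectionalPRankLE 2 k S := by
  intro H N _ A hA hA2
  let π : H →* H ⧸ N := QuotientGroup.mk' N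
  set P : Subgroup H := A.comap π with hP
  have hNP : N ≤ P := fun n hn => by
    show π n ∈ A
    rw [show π n = 1 from (QuotientGroup.eq_one_iff (N := N) n).2 hn]
    exact A.one_mem
  have he : Elem2 (P.map H.subtype) (N.map H.subtype) := by
    refine ⟨Subgroup.map_mono hNP, ?_, ?_⟩
    · rintro _ ⟨x, hx, rfl⟩
      refine ⟨x * x, ?_, by simp⟩
      rw [SetLike.mem_coe, ← QuotientGroup.eq_one_iff]
      have := hA2 (π x) hx
      rw [sq, ← map_mul] at this
      exact this
    · rintro _ ⟨x, hx, rfl⟩ _ ⟨y, hy, rfl⟩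
      refine ⟨x * y * x⁻¹ * y⁻¹, ?_, by simp⟩
      rw [SetLike.mem_coe, ← QuotientGroup.eq_one_iff]
      show π (x * y * x⁻¹ * y⁻¹) = 1
      have hc : π x * π y = π y * π x :=
        congrArg Subtype.val (hA.is_comm.comm ⟨π x, hx⟩ ⟨π y, hy⟩)
      rw [map_mul, map_mul, map_mul, map_inv, map_inv, hc]
      group
  have h1 := h _ _ he
  rw [← Nat.card_congr (P.equivMapOfInjective _ H.subtype_injective).toEquiv,
    ← Nat.card_congr (N.equivMapOfInjective _ H.subtype_injective).toEquiv] at h1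
  have h2 : Nat.card P = Nat.card N * Nat.card A := by
    have e1 := P.card_mul_index
    have e2 := A.card_mul_index
    have e3 : P.index = A.index :=
      Subgroup.index_comap_of_surjective A (QuotientGroup.mk'_surjective N)
    have e4 := Subgroup.card_eq_card_quotient_mul_card_subgroup N
    rw [e3, e4, ← e2] at e1
    have h0 : 0 < A.index := Nat.pos_of_ne_zero A.index_ne_zero_of_finite
    apply Nat.eq_of_mul_eq_mul_right h0
    rw [e1]; ring
  rw [h2, Nat.mul_comm] at h1
  exact Nat.le_of_mul_le_mul_right h1 Nat.card_pos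

variable [Finite S]

/-- A step in a series of normal subgroups of a finite 2-group. -/
theorem exists_step (hS : IsPGroup 2 S) (K M : Subgroup S) [K.Normal] [M.Normal] (hKM : K ≤ M)
    (hne : K ≠ M) : ∃ c ∈ M, c ∉ K ∧ c * c ∈ K ∧ ∀ s : S, s * c * s⁻¹ * c⁻¹ ∈ K := by
  let π : S →* S ⧸ K := QuotientGroup.mk' K
  haveI : (M.map π).Normal := Subgroup.Normal.map inferInstance _ (QuotientGroup.mk'_surjective K)
  have hbot : M.map π ≠ ⊥ := by
    rw [Ne, Subgroup.map_eq_bot_iff, QuotientGroup.ker_mk']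
    exact fun h => hne (le_antisymm hKM h)
  obtain ⟨z, hz, hzc, hz2⟩ := Cfsg.Agent.TwoGroups.exists_central_involution_of_normal
    (hS.to_quotient K) (M.map π) hbot
  obtain ⟨c, hc, rfl⟩ := hz
  have key : ∀ x, x ∈ K ↔ π x = 1 := fun x => (QuotientGroup.eq_one_iff x).symm
  refine ⟨c, hc, fun h => ?_, ?_, fun s => ?_⟩
  · rw [(key c).1 h] at hz2; simp at hz2
  · rw [key, map_mul, ← sq, ← hz2, pow_orderOf_eq_one]
  · rw [key, map_mul, map_mul, map_mul, map_inv, map_inv, Subgroup.mem_center_iff.1 hzc (π s)]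
    group

/-- The subgroup `K ∪ cK` of such a step. -/
theorem exists_double (K : Subgroup S) [K.Normal] {c : S} (hcK : c ∉ K) (hc2 : c * c ∈ K)
    (hcs : ∀ s : S, s * c * s⁻¹ * c⁻¹ ∈ K) :
    ∃ D : Subgroup S, D.Normal ∧ K ≤ D ∧ c ∈ D ∧ Nat.card D = 2 * Nat.card K ∧
      ∀ x : S, x ∈ D ↔ x ∈ K ∨ c⁻¹ * x ∈ K := by
  let π : S →* S ⧸ K := QuotientGroup.mk' K
  have key : ∀ x, x ∈ K ↔ π x = 1 := fun x => (QuotientGroup.eq_one_iff x).symm
  have h2 : π c * π c = 1 := by rw [← map_mul, ← key]; exact hc2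
  have ho : orderOf (π c) = 2 :=
    orderOf_eq_prime (by rw [sq]; exact h2) fun h => hcK ((key c).2 h)
  have hmem : ∀ y, y ∈ Subgroup.zpowers (π c) ↔ y = 1 ∨ y = π c := by
    intro y
    constructor
    · intro hy
      classical
      rw [(isOfFinOrder_of_finite (π c)).mem_zpowers_iff_mem_range_orderOf, ho] at hy
      simp only [Finset.mem_image, Finset.mem_range] at hy
      obtain ⟨i, hi, rfl⟩ := hy
      interval_cases i
      · exact Or.inl (pow_zero _)
      · exact Or.inr (pow_one _)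
    · rintro (rfl | rfl)
      · exact Subgroup.one_mem _
      · exact Subgroup.mem_zpowers _
  have hcent : π c ∈ Subgroup.center (S ⧸ K) := by
    rw [Subgroup.mem_center_iff]
    intro y
    obtain ⟨s, rfl⟩ := QuotientGroup.mk'_surjective K y
    have := (key _).1 (hcs s)
    rw [map_mul, map_mul, map_mul, map_inv, map_inv, mul_inv_eq_one, mul_inv_eq_iff_eq_mul] at this
    exact this
  haveI hzn : (Subgroup.zpowers (π c)).Normal := ⟨fun n hn g => by
    have hn' : n ∈ Subgroup.center (S ⧸ K) := Subgroup.zpowers_le.2 hcent hn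
    rw [Subgroup.mem_center_iff.1 hn' g, mul_assoc, mul_inv_cancel, mul_one]; exact hn⟩
  refine ⟨(Subgroup.zpowers (π c)).comap π, inferInstance, fun x hx => ?_,
    Subgroup.mem_zpowers _, ?_, fun x => ?_⟩
  · rw [Subgroup.mem_comap, (key x).1 hx]; exact Subgroup.one_mem _
  · set D := (Subgroup.zpowers (π c)).comap π
    have e1 := D.card_mul_index
    have e2 := (Subgroup.zpowers (π c)).card_mul_index
    have e3 : D.index = (Subgroup.zpowers (π c)).index :=
      Subgroup.index_comap_of_surjective _ (QuotientGroup.mk'_surjective K)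
    have e4 := Subgroup.card_eq_card_quotient_mul_card_subgroup K
    rw [e3, e4, ← e2, Nat.card_zpowers, ho] at e1
    apply Nat.eq_of_mul_eq_mul_right
      (Nat.pos_of_ne_zero (Subgroup.zpowers (π c)).index_ne_zero_of_finite)
    rw [e1]; ring
  · rw [Subgroup.mem_comap, hmem, key, key, map_mul, map_inv, inv_mul_eq_one, eq_comm (a := π c)]

/-- A normal subgroup of a finite 2-group of order at least `2^k` contains one of order `2^k`. -/
theorem exists_normal_card (hS : IsPGroup 2 S) (M : Subgroup S) [M.Normal] :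
    ∀ k : ℕ, 2 ^ k ≤ Nat.card M → ∃ K : Subgroup S, K.Normal ∧ K ≤ M ∧ Nat.card K = 2 ^ k
  | 0, _ => ⟨⊥, inferInstance, bot_le, by simp⟩
  | k + 1, hk => by
    have hlt : 2 ^ k < Nat.card M := lt_of_lt_of_le (Nat.pow_lt_pow_right one_lt_two k.lt_succ_self) hk
    obtain ⟨K, hK, hKM, hKc⟩ := exists_normal_card hS M k hlt.le
    haveI := hK
    obtain ⟨c, hc, hcK, hc2, hcs⟩ := exists_step hS K M hKM (fun h => by rw [h] at hKc; omega)
    obtain ⟨D, hD, hKD, hcD, hDc, hmem⟩ := exists_double K hcK hc2 hcs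
    refine ⟨D, hD, fun x hx => ?_, by rw [hDc, hKc, pow_succ']⟩
    rcases (hmem x).1 hx with h | h
    · exact hKM h
    · simpa using M.mul_mem hc (hKM h)

end Cfsg.Agent.Harada
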