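import Cfsg.Agent.Harada.SelfCentralMain

/-!
# The case of a centralizer of order sixteen, and the theorem
-/

set_option autoImplicit false
set_option linter.all false
set_option maxHeartbeats 1000000

namespace Cfsg.Agent.Harada

open scoped commutatorElement

universe u

variable {S : Type u} [Group S] [Finite S]

/-- An involutory map on an elementary section has a large fixed space. -/
theorem card_fixed_section {H N : Subgroup S} (e : Elem2 H N) {a : S} (ha : a * a = 1)
    (hH : ∀ x ∈ H, a * x * a⁻¹ ∈ H) (hN : ∀ x ∈ N, a * x * a⁻¹ ∈ N) :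
    ∃ K : Subgroup S, N ≤ K ∧ K ≤ H ∧ (∀ x ∈ K, ⁅a, x⁆ ∈ N) ∧
      Nat.card H * Nat.card N ≤ Nat.card K * Nat.card K := by
  have conjH : ∀ {x n : S}, x ∈ H → n ∈ N → x * n * x⁻¹ ∈ N := fun hx hn => e.conj hx hn
  have hbr : ∀ x ∈ H, ∀ y, ⁅a, x * y⁆ = ⁅a, x⁆ * (x * ⁅a, y⁆ * x⁻¹) := fun x _ y => by
    simp only [commutatorElement_def]; group
  have hinv : ∀ x : S, ⁅a, x⁻¹⁆ = x⁻¹ * ⁅a, x⁆⁻¹ * x := fun x => by
    simp only [commutatorElement_def, mul_inv_rev, inv_inv, mul_assoc, inv_mul_cancel_left]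
  let K : Subgroup S :=
    { carrier := {x | x ∈ H ∧ ⁅a, x⁆ ∈ N}
      one_mem' := ⟨H.one_mem, by simp⟩
      mul_mem' := fun {x y} hx hy => ⟨H.mul_mem hx.1 hy.1, by
        rw [hbr x hx.1 y]; exact N.mul_mem hx.2 (conjH hx.1 hy.2)⟩
      inv_mem' := fun {x} hx => ⟨H.inv_mem hx.1, by
        rw [hinv]; simpa using conjH (H.inv_mem hx.1) (N.inv_mem hx.2)⟩ }
  have hK : ∀ x, x ∈ K ↔ x ∈ H ∧ ⁅a, x⁆ ∈ N := fun x => Iff.rfl
  have hNK : N ≤ K := fun n hn => (hK n).2 ⟨e.le hn, by
    rw [commutatorElement_def]; exact N.mul_mem (hN n hn) (N.inv_mem hn)⟩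
  refine ⟨K, hNK, fun x hx => hx.1, fun x hx => hx.2, ?_⟩
  have hbH : ∀ x ∈ H, ⁅a, x⁆ ∈ H := fun x hx => by
    rw [commutatorElement_def]; exact H.mul_mem (hH x hx) (H.inv_mem hx)
  have hin : ∀ x ∈ H, ⁅a, x⁆ ∈ K := fun x hx => (hK _).2 ⟨hbH x hx, by
    have h1 : a * ⁅a, x⁆ * a⁻¹ = ⁅a, x⁆⁻¹ := by
      simp only [commutatorElement_def]
      calc a * (a * x * a⁻¹ * x⁻¹) * a⁻¹ = (a * a) * x * (a * a)⁻¹ * (a * x * a⁻¹)⁻¹ := by group
        _ = (a * x * a⁻¹ * x⁻¹)⁻¹ := by rw [ha]; group
    rw [commutatorElement_def a ⁅a, x⁆, h1, ← mul_inv_rev]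
    exact N.inv_mem (e.sq _ (hbH x hx))⟩
  -- cosets of `K` in `H` are determined by cosets of `N` in `K`
  classical
  have h1 := card_le_mul_inter H K
    (fun x => if h : ⁅a, x⁆ ∈ K then
      (QuotientGroup.mk (⟨⁅a, x⁆, h⟩ : K) : ↥K ⧸ N.subgroupOf K)
      else QuotientGroup.mk (1 : K)) fun x hx y hy heq => by
    rw [dif_pos (hin x hx), dif_pos (hin y hy), QuotientGroup.eq, Subgroup.mem_subgroupOf] at heq
    simp only [Subgroup.coe_mul, Subgroup.coe_inv] at heq
    refine (hK _).2 ⟨H.mul_mem (H.inv_mem hx) hy, ?_⟩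
    rw [hbr _ (H.inv_mem hx), hinv]
    have := conjH (H.inv_mem hx) heq
    convert this using 1
    group
  have h2 := (N.subgroupOf K).card_mul_index
  rw [Nat.card_congr (Subgroup.subgroupOfEquivOfLe hNK).toEquiv, Subgroup.index_eq_card] at h2
  have h3 : Nat.card ↥(H ⊓ K) = Nat.card K := by
    rw [inf_eq_right.2 fun x hx => hx.1]
  rw [h3] at h1
  calc Nat.card H * Nat.card N
      ≤ Nat.card (↥K ⧸ N.subgroupOf K) * Nat.card K * Nat.card N := Nat.mul_le_mul_right _ h1
    _ = (Nat.card N * Nat.card (↥K ⧸ N.subgroupOf K)) * Nat.card K := by ring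
    _ = _ := by rw [h2]

namespace Setup

variable {A B : Subgroup S} (h : Setup A B)
include h

variable {c : S} {D : Subgroup S}

theorem D_comm (st : Step (B := B) c D) : ∀ x ∈ D, ∀ y ∈ D, x * y = y * x := by
  intro x hx y hy
  have hBD : ∀ b ∈ B, Commute b x := fun b hb => (comm_C (h.step_le st hx) hb).symm
  have hcx : Commute c x := by
    rcases (st.mem x).1 hx with e | e
    · exact comm_C st.cC e
    · have h1 : Commute c (c⁻¹ * x) := comm_C st.cC e
      simpa using (Commute.refl c).mul_right h1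
  rcases (st.mem y).1 hy with e | e
  · exact ((hBD y e).symm).eq
  · have := hcx.mul_left (hBD _ e)
    simpa using this.symm.eq

theorem bound_case (hC : Subgroup.centralizer (B : Set S) ≠ B) (st : Step (B := B) c D)
    (hD : Subgroup.centralizer (B : Set S) = D) {H N : Subgroup S}
    (e : Elem2 H N) : Nat.card H ≤ 16 * Nat.card N := by
  classical
  by_contra hbig
  have hbig : 16 * Nat.card N < Nat.card H := Nat.lt_of_not_le hbig
  have h32 := big_of_lt h.two hbig
  have h8 := h.inter_big e hbig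
  set C := Subgroup.centralizer (B : Set S) with hCdef
  have hC16 : Nat.card C = 16 := by rw [hD]; exact st.card
  have hCcomm : ∀ x ∈ C, ∀ y ∈ C, x * y = y * x := fun x hx y hy =>
    h.D_comm st x (hD ▸ hx) y (hD ▸ hy)
  have hCn : C.Normal := h.C_normal
  have hCdec : ∀ x ∈ C, x ∉ B → c⁻¹ * x ∈ B := fun x hx hxB =>
    ((st.mem x).1 (hD ▸ hx)).resolve_left hxB
  have hbrB : ∀ s : S, ∀ x ∈ C, ⁅s, x⁆ ∈ B := fun s x hx => by
    by_cases hxB : x ∈ B
    · exact h.eight.bracket_mem hxB s
    · have h1 := hCdec x hx hxB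
      have h2 : x = c * (c⁻¹ * x) := by group
      rw [h2, h.bracket_mul_C st.cC (h.eight.bracket_mem h1 s)]
      exact B.mul_mem (st.cs s) (h.eight.bracket_mem h1 s)
  have bne : ∀ {x a : S}, x ∈ C → x ∉ B → a ∈ A → a ∉ C → ∀ b ∈ B, ⁅a, x⁆ ≠ ⁅a, b⁆ :=
    fun {x a} hx hxB ha haC b hb => h.bracket_ne hC hx hxB (fun a _ => hbrB a x hx) ha haC hb
  obtain ⟨i, hi⟩ := two_pow_of_isPGroup h.two (H ⊓ C)
  obtain ⟨j, hj⟩ := two_pow_of_isPGroup h.two (N ⊓ C)
  have hile : Nat.card ↥(H ⊓ C) ≤ 16 := hC16 ▸ Subgroup.card_le_of_le inf_le_right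
  have hposj : 0 < Nat.card ↥(N ⊓ C) := Nat.card_pos
  have hposN : 0 < Nat.card N := Nat.card_pos
  have hcases : (Nat.card ↥(H ⊓ C) = 16 ∧ Nat.card ↥(N ⊓ C) = 1) ∨
      (Nat.card ↥(H ⊓ C) = 16 ∧ Nat.card ↥(N ⊓ C) = 2) ∨
      (Nat.card ↥(H ⊓ C) = 8 ∧ Nat.card ↥(N ⊓ C) = 1) := by
    have hj2 : Nat.card ↥(N ⊓ C) ≤ 2 := by omega
    have : i ≤ 4 := (Nat.pow_le_pow_iff_right (by norm_num : 1 < 2)).1 (by rw [← hi]; omega)
    interval_cases i <;> omega
  -- `H` is not contained in `C`
  have hHC : ¬ H ≤ C := fun hle => by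
    have := Subgroup.card_le_of_le hle
    omega
  have full : Nat.card ↥(H ⊓ C) = 16 → C ≤ H := fun e16 =>
    inf_eq_right.1 (Subgroup.eq_of_le_of_card_ge inf_le_right (by rw [hC16, e16]))
  rcases hcases with ⟨e16, e1⟩ | ⟨e16, e2⟩ | ⟨e8, e1⟩
  · apply hHC
    intro g hg
    rw [hCdef, Subgroup.mem_centralizer_iff]
    intro b hb
    have := inter_comm e hCn hg (full e16 (h.B_le hb)) (h.B_le hb)
    rw [Subgroup.card_eq_one] at e1
    rw [e1, Subgroup.mem_bot, Eight.bracket_eq_one] at this
    exact this.symm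
  · -- a transvection group with centre `n`
    obtain ⟨⟨n, hn⟩, hn1, huniq⟩ := (Nat.card_eq_two_iff' (1 : ↥(N ⊓ C))).1 e2
    have hn1' : n ≠ 1 := fun h => hn1 (Subtype.ext h)
    have hel : ∀ x ∈ N ⊓ C, x = 1 ∨ x = n := fun x hx => by
      by_cases h1 : x = 1
      · exact Or.inl h1
      · exact Or.inr (congrArg Subtype.val (huniq ⟨x, hx⟩ fun h => h1 (congrArg Subtype.val h)))
    have hbrn : ∀ g ∈ H, ∀ x ∈ C, ⁅g, x⁆ = 1 ∨ ⁅g, x⁆ = n := fun g hg x hx =>
      hel _ (inter_comm e hCn hg (full e16 hx) hx)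
    obtain ⟨g₀, hg₀, hg₀C⟩ := SetLike.not_le_iff_exists.1 hHC
    obtain ⟨b₁, hb₁, hb₁n⟩ : ∃ b ∈ B, ⁅g₀, b⁆ = n := by
      by_contra hcon
      push Not at hcon
      apply hg₀C
      rw [hCdef, Subgroup.mem_centralizer_iff]
      intro b hb
      exact (Eight.bracket_eq_one.1 ((hbrn g₀ hg₀ b (h.B_le hb)).resolve_right (hcon b hb))).symm
    have hnB : n ∈ B := hb₁n ▸ h.eight.bracket_mem hb₁ g₀
    have hnH : n ∈ H := e.le hn.1
    have hHn : ∀ g ∈ H, g * n = n * g := fun g hg => by
      rcases hel _ ⟨e.conj hg hn.1, hCn.conj_mem n hn.2 g⟩ with h1 | h1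
      · exfalso; apply hn1'; simpa using h1
      · exact mul_inv_eq_iff_eq_mul.1 h1
    have hH64 := h.eight.card_transvections hnB hn1' H hHn fun g hg b hb =>
      hbrn g hg b (h.B_le hb)
    rw [← hCdef, e16] at hH64
    have hN2 : 2 ≤ Nat.card N := e2 ▸ Subgroup.card_le_of_le inf_le_left
    have hN : N = N ⊓ C := (Subgroup.eq_of_le_of_card_ge inf_le_left (by omega)).symm
    have hS8 := h.eight.card_le_eight h.two ⊤
    rw [top_inf_eq, ← hCdef, hC16, Subgroup.card_top] at hS8
    haveI hHnorm : H.Normal := by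
      have h1 := H.card_mul_index
      have hH : Nat.card H = 64 := by omega
      rw [hH] at h1
      have hpos : H.index ≠ 0 := H.index_ne_zero_of_finite
      have hi2 : H.index = 1 ∨ H.index = 2 := by omega
      rcases hi2 with h2 | h2
      · rw [Subgroup.index_eq_one] at h2; rw [h2]; infer_instance
      · exact Subgroup.normal_of_index_eq_two h2
    have hnS : ∀ s : S, s * n = n * s := by
      intro s
      have e1 : s * n * s⁻¹ = ⁅s * g₀ * s⁻¹, s * b₁ * s⁻¹⁆ := by
        rw [← hb₁n]; simp only [commutatorElement_def]; group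
      rcases hbrn _ (hHnorm.conj_mem g₀ hg₀ s) _ (h.B_le (h.eight.conj_mem hb₁ s)) with h1 | h1
      · rw [← e1] at h1; exfalso; apply hn1'; simpa using h1
      · rw [← e1] at h1; exact mul_inv_eq_iff_eq_mul.1 h1
    have hnA : n ∈ A := h.self n fun a _ => (hnS a).symm
    -- no element of `A` outside `C` lies in `H`
    have notH : ∀ a ∈ A, a ∉ C → a ∉ H := by
      intro a ha haC haH
      obtain ⟨f, b₀, -, -, hfB, hf1, hb₀, hbf, -⟩ := h.exists_four hC ha haC
      have hfn : f = n := by
        rcases hbrn a haH b₀ (h.B_le hb₀) with h1 | h1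
        · exact absurd (hbf.symm.trans h1) hf1
        · exact hbf.symm.trans h1
      rcases hbrn a haH c st.cC with h1 | h1
      · exact bne st.cC st.cB ha haC 1 B.one_mem (by simpa using h1)
      · exact bne st.cC st.cB ha haC b₀ hb₀ (by rw [hbf, hfn, h1])
    obtain ⟨a, ha, haC⟩ := SetLike.not_le_iff_exists.1 (h.not_le hC)
    have haN : ∀ x ∈ N, a * x * a⁻¹ ∈ N := fun x hx => by
      rcases hel x (hN ▸ hx) with rfl | rfl
      · simp
      · rw [hnS a, mul_inv_cancel_right]; exact hn.1
    obtain ⟨K, hNK, hKH, hKN, hcard⟩ := card_fixed_section e (h.asq a ha)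
      (fun x hx => hHnorm.conj_mem x hx a) haN
    obtain ⟨k, hk⟩ := two_pow_of_isPGroup h.two K
    have hK16 : 16 ≤ Nat.card K := by
      have hH : Nat.card H = 64 := by omega
      have hN' : Nat.card N = 2 := by rw [hN]; exact e2
      rw [hH, hN'] at hcard
      by_contra hlt
      have hk3 : k ≤ 3 := by
        by_contra hk4
        have := Nat.pow_le_pow_right (show 2 > 0 by norm_num) (show 4 ≤ k by omega)
        omega
      have := Nat.pow_le_pow_right (show 2 > 0 by norm_num) hk3
      rw [← hk] at this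
      nlinarith
    have hker : Nat.card K ≤ 2 * Nat.card ↥(K ⊓ Subgroup.centralizer ({a} : Set S)) := by
      have := card_le_mul_inter (T := Bool) K (Subgroup.centralizer ({a} : Set S))
        (fun x => decide (⁅a, x⁆ = 1)) fun x hx y hy hxy => by
        simp only [decide_eq_decide] at hxy
        have hx' := hel _ (hN ▸ hKN x hx)
        have hy' := hel _ (hN ▸ hKN y hy)
        have heq : ⁅a, x⁆ = ⁅a, y⁆ := by
          rcases hx' with h1 | h1 <;> rcases hy' with h2 | h2
          · rw [h1, h2]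
          · exact absurd ((hxy.1 h1).symm.trans h2) (Ne.symm hn1')
          · exact absurd ((hxy.2 h2).symm.trans h1) (Ne.symm hn1')
          · rw [h1, h2]
        rw [Subgroup.mem_centralizer_singleton_iff]
        simp only [commutatorElement_def] at heq
        have hxn : ∀ z, z ∈ H → a * z * a⁻¹ * z⁻¹ = ⁅a, z⁆ := fun z _ => (commutatorElement_def a z).symm
        have h3 : a * x * a⁻¹ = ⁅a, x⁆ * x := by simp only [commutatorElement_def]; group
        have h4 : a * y * a⁻¹ = ⁅a, x⁆ * y := by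
          simp only [commutatorElement_def]; rw [heq]; group
        have h5 : a * (x⁻¹ * y) * a⁻¹ = x⁻¹ * y := by
          calc a * (x⁻¹ * y) * a⁻¹ = (a * x * a⁻¹)⁻¹ * (a * y * a⁻¹) := by group
            _ = _ := by rw [h3, h4]; group
        exact (mul_inv_eq_iff_eq_mul.1 h5).symm
      simpa using this
    obtain ⟨f, b₀, hK4, hfA, hfB, hf1, hb₀, hbf, hall⟩ := h.exists_four hC ha haC
    set Ka := B ⊓ Subgroup.centralizer ({a} : Set S) with hKa
    obtain ⟨g, hg, hgC⟩ : ∃ g ∈ K ⊓ Subgroup.centralizer ({a} : Set S), g ∉ C := by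
      by_contra hcon
      push Not at hcon
      have hle : K ⊓ Subgroup.centralizer ({a} : Set S) ≤ Ka := fun x hx => by
        refine ⟨?_, hx.2⟩
        by_contra hxB
        refine bne (hcon x hx) hxB ha haC 1 B.one_mem ?_
        rw [commutatorElement_one_right, Eight.bracket_eq_one]
        exact (Subgroup.mem_centralizer_singleton_iff.1 hx.2).symm
      have := Subgroup.card_le_of_le hle
      omega
    have hgH : g ∈ H := hKH hg.1
    have hga : g * a = a * g := Subgroup.mem_centralizer_singleton_iff.1 hg.2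
    -- `f ≠ n`
    have hfn : f ≠ n := by
      intro hfn
      let X : Subgroup S :=
        { carrier := {s | ∀ b ∈ B, ⁅s, b⁆ = 1 ∨ ⁅s, b⁆ = n}
          one_mem' := fun b _ => Or.inl (by simp)
          mul_mem' := fun {x y} hx hy b hb => by
            have e1 : ⁅x * y, b⁆ = x * ⁅y, b⁆ * x⁻¹ * ⁅x, b⁆ := by
              simp only [commutatorElement_def]; group
            rw [e1]
            rcases hy b hb with h1 | h1 <;> rcases hx b hb with h2 | h2 <;>
              simp [h1, h2, hnS x, h.eight.sq n hnB]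
          inv_mem' := fun {x} hx b hb => by
            have e1 : ⁅x⁻¹, b⁆ = x⁻¹ * ⁅x, b⁆⁻¹ * x := by
              simp only [commutatorElement_def]; group
            rw [e1]
            rcases hx b hb with h1 | h1
            · exact Or.inl (by rw [h1]; group)
            · exact Or.inr (by rw [h1, h.eight.inv_eq hnB, hnS x⁻¹]; group) }
      have hX := h.eight.card_transvections hnB hn1' X (fun x _ => hnS x) fun x hx b hb => hx b hb
      have hHX : H ≤ X := fun x hx b hb => hbrn x hx b (h.B_le hb)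
      have haX : a ∈ X := fun b hb => hfn ▸ hall b hb
      have hCX : Nat.card ↥(X ⊓ C) ≤ 16 := hC16 ▸ Subgroup.card_le_of_le inf_le_right
      have hle := Subgroup.card_le_of_le hHX
      rw [← hCdef] at hX
      exact notH a ha haC ((Subgroup.eq_of_le_of_card_ge hHX (by omega)).symm ▸ haX)
    -- `g` centralizes `A`
    have hgf : g * f = f * g := by
      have e1 : g * f * g⁻¹ = ⁅a, g * b₀ * g⁻¹⁆ := by
        rw [← hbf]
        simp only [commutatorElement_def]
        calc g * (a * b₀ * a⁻¹ * b₀⁻¹) * g⁻¹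
            = (g * a) * b₀ * (g * a)⁻¹ * (g * b₀ * g⁻¹)⁻¹ := by group
          _ = a * (g * b₀ * g⁻¹) * a⁻¹ * (g * b₀ * g⁻¹)⁻¹ := by rw [hga]; group
      rcases hall _ (h.eight.conj_mem hb₀ g) with h1 | h1 <;> rw [h1] at e1
      · exfalso; apply hf1; simpa using e1
      · exact mul_inv_eq_iff_eq_mul.1 e1
    have hgA : g ∈ A := h.self g fun x hx => by
      have q0 : ∀ y ∈ A, g * y = y * g → y ∈ A ⊓ Subgroup.centralizer ({g} : Set S) :=
        fun y hy h1 => ⟨hy, Subgroup.mem_centralizer_singleton_iff.2 h1.symm⟩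
      have qa := q0 a ha hga
      have qf := q0 f hfA hgf
      have qn := q0 n hnA (hHn g hgH)
      have d1 : f * n ≠ 1 := fun h1 => hfn (by
        rw [← h.eight.inv_eq hnB]; exact eq_inv_of_mul_eq_one_left h1)
      have d2 : f * n ≠ f := fun h1 => hn1' (mul_eq_left.1 h1)
      have d3 : f * n ≠ n := fun h1 => hf1 (mul_eq_right.1 h1)
      have hane : ∀ y, y ∈ B → a ≠ y := fun y hy h1 => haC (h1 ▸ h.B_le hy)
      have hcard' : ({a, f * n, n, f, 1} : Finset S).card = 5 := by
        rw [Finset.card_insert_of_notMem, Finset.card_insert_of_notMem,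
          Finset.card_insert_of_notMem, Finset.card_insert_of_notMem, Finset.card_singleton]
        all_goals simp only [Finset.mem_insert, Finset.mem_singleton, not_or]
        · exact hf1
        · exact ⟨Ne.symm hfn, hn1'⟩
        · exact ⟨d3, d2, d1⟩
        · exact ⟨hane _ (B.mul_mem hfB hnB), hane _ hnB, hane _ hfB, hane _ B.one_mem⟩
      have h5 := finset_card_le (A ⊓ Subgroup.centralizer ({g} : Set S))
        ({a, f * n, n, f, 1} : Finset S) (by
          simp only [Finset.mem_insert, Finset.mem_singleton]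
          rintro y (rfl | rfl | rfl | rfl | rfl)
          exacts [qa, mul_mem qf qn, qn, qf, Subgroup.one_mem _])
      have hE := h.A_eq_of_five (K := A ⊓ Subgroup.centralizer ({g} : Set S)) inf_le_left (by omega)
      have : x ∈ A ⊓ Subgroup.centralizer ({g} : Set S) := hE.symm ▸ hx
      exact (Subgroup.mem_centralizer_singleton_iff.1 this.2).symm
    exact notH g hgA hgC hgH
  · -- the pointwise stabilizer of a hyperplane
    rw [Subgroup.card_eq_one] at e1
    set X := H ⊓ C with hXdef
    have hHX : ∀ g ∈ H, ∀ x ∈ X, g * x = x * g := fun g hg x hx => by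
      have := inter_comm e hCn hg hx.1 hx.2
      rw [e1, Subgroup.mem_bot, Eight.bracket_eq_one] at this
      exact this
    have hXB : X ≠ B := fun h1 => hHC fun g hg => Subgroup.mem_centralizer_iff.2 fun b hb =>
      (hHX g hg b (h1 ▸ hb)).symm
    set W := X ⊓ B with hWdef
    have hW4 : Nat.card W = 4 := by
      have hne : Nat.card W ≠ 8 := fun h8' => hXB (by
        have e2 : W = B := Subgroup.eq_of_le_of_card_ge inf_le_right (by rw [h.eight.card, h8'])
        have e3 : W = X := Subgroup.eq_of_le_of_card_ge inf_le_left (by rw [e8, h8'])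
        rw [← e3, e2])
      have h4 := card_le_mul_inter (T := Bool) X B (fun x => decide (x ∈ B))
        fun x hx y hy hxy => by
        simp only [decide_eq_decide] at hxy
        by_cases hxB : x ∈ B
        · exact B.mul_mem (B.inv_mem hxB) (hxy.1 hxB)
        · have h1 := B.mul_mem (B.inv_mem (hCdec x hx.2 hxB))
            (hCdec y hy.2 fun hyB => hxB (hxy.2 hyB))
          simpa [mul_assoc] using h1
      simp only [Nat.card_eq_fintype_card (α := Bool), Fintype.card_bool] at h4
      rw [e8, ← hWdef] at h4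
      rcases h.eight.card_cases (K := W) inf_le_right with h1 | h1 | h1 | h1 <;> omega
    obtain ⟨x, hx, hxB⟩ : ∃ x ∈ X, x ∉ B := by
      by_contra hcon
      push Not at hcon
      exact hXB (Subgroup.eq_of_le_of_card_ge hcon (by rw [h.eight.card, e8]))
    have hH32 := h.eight.card_fixator (W := W) inf_le_right hW4 H fun g hg w hw => hHX g hg w hw.1
    rw [← hCdef, ← hXdef, e8] at hH32
    set T := H ⊔ C with hTdef
    haveI := hCn
    have hT64 : 64 ≤ Nat.card T := by
      have h1 := (C.subgroupOf T).card_mul_index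
      have h2 : Nat.card (C.subgroupOf T) = 16 := by
        rw [Nat.card_congr (Subgroup.subgroupOfEquivOfLe (le_sup_right : C ≤ T)).toEquiv, hC16]
      have h3 : Nat.card ↥H ≤ (C.subgroupOf T).index * 8 := by
        rw [Subgroup.index_eq_card, ← e8]
        refine card_le_mul_inter (T := ↥T ⧸ C.subgroupOf T) H C
          (fun g => if hg : g ∈ T then QuotientGroup.mk (⟨g, hg⟩ : T)
            else QuotientGroup.mk (1 : T))
          fun p hp q hq hpq => ?_
        have hpT : p ∈ T := (le_sup_left : H ≤ T) hp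
        have hqT : q ∈ T := (le_sup_left : H ≤ T) hq
        rw [dif_pos hpT, dif_pos hqT, QuotientGroup.eq, Subgroup.mem_subgroupOf] at hpq
        exact hpq
      rw [h2] at h1
      omega
    have hS8 := h.eight.card_le_eight h.two ⊤
    rw [top_inf_eq, ← hCdef, hC16, Subgroup.card_top] at hS8
    haveI hTn : T.Normal := by
      have h1 := T.card_mul_index
      have hi0 : T.index ≠ 0 := T.index_ne_zero_of_finite
      have hi2 : T.index = 1 ∨ T.index = 2 := by
        have : T.index * 64 ≤ 128 := by nlinarith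
        omega
      rcases hi2 with h2 | h2
      · rw [Subgroup.index_eq_one] at h2; rw [h2]; infer_instance
      · exact Subgroup.normal_of_index_eq_two h2
    have hTX : T ≤ Subgroup.centralizer (X : Set S) := sup_le
      (fun g hg => Subgroup.mem_centralizer_iff.2 fun y hy => (hHX g hg y hy).symm)
      (fun g hg => Subgroup.mem_centralizer_iff.2 fun y hy => hCcomm y hy.2 g hg)
    have hHT : H ≤ T := le_sup_left
    have hCT : C ≤ T := le_sup_right
    -- `X` and `W` are normal
    have hXeq : C ⊓ Subgroup.centralizer (T : Set S) = X := by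
      have hXle : X ≤ C ⊓ Subgroup.centralizer (T : Set S) := fun y hy => Subgroup.mem_inf.2 ⟨hy.2,
        Subgroup.mem_centralizer_iff.2 fun t ht =>
          (Subgroup.mem_centralizer_iff.1 (hTX ht) y hy).symm⟩
      refine (Subgroup.eq_of_le_of_card_ge hXle ?_).symm
      have hd := Subgroup.card_dvd_of_le (inf_le_left : C ⊓ Subgroup.centralizer (T : Set S) ≤ C)
      rw [hC16] at hd
      have hne : Nat.card ↥(C ⊓ Subgroup.centralizer (T : Set S)) ≠ 16 := fun h16 => by
        have e2 := Subgroup.eq_of_le_of_card_ge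
          (inf_le_left : C ⊓ Subgroup.centralizer (T : Set S) ≤ C) (by rw [hC16, h16])
        apply hHC
        intro g hg
        rw [hCdef, Subgroup.mem_centralizer_iff]
        intro b hb
        have : b ∈ C ⊓ Subgroup.centralizer (T : Set S) := e2.symm ▸ h.B_le hb
        exact (Subgroup.mem_centralizer_iff.1 this.2 g (hHT hg)).symm
      have := Nat.le_of_dvd (by norm_num) hd
      rw [e8]
      interval_cases hv : Nat.card ↥(C ⊓ Subgroup.centralizer (T : Set S)) <;> omega
    haveI hcT : (Subgroup.centralizer (T : Set S)).Normal := ⟨fun q hq g => by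
      rw [Subgroup.mem_centralizer_iff]
      intro t ht
      have h1 : g⁻¹ * t * g ∈ T := by simpa using hTn.conj_mem t ht g⁻¹
      have h2 := Subgroup.mem_centralizer_iff.1 hq _ h1
      calc t * (g * q * g⁻¹) = g * ((g⁻¹ * t * g) * q) * g⁻¹ := by group
        _ = g * (q * (g⁻¹ * t * g)) * g⁻¹ := by rw [h2]
        _ = g * q * g⁻¹ * t := by group⟩
    have hXn : ∀ s : S, ∀ y ∈ X, s * y * s⁻¹ ∈ X := fun s y hy => by
      rw [← hXeq] at hy ⊢
      exact ⟨hCn.conj_mem y hy.1 s, hcT.conj_mem y hy.2 s⟩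
    have hWn : ∀ s : S, ∀ w ∈ W, s * w * s⁻¹ ∈ W := fun s w hw =>
      ⟨hXn s w hw.1, h.eight.conj_mem hw.2 s⟩
    obtain ⟨a, ha, haC⟩ := SetLike.not_le_iff_exists.1 (h.not_le hC)
    obtain ⟨f, b₀, hK4, hfA, hfB, hf1, hb₀, hbf, hall⟩ := h.exists_four hC ha haC
    set Ka := B ⊓ Subgroup.centralizer ({a} : Set S) with hKa
    have hβW : ⁅a, x⁆ ∈ W := ⟨by
      rw [commutatorElement_def]; exact X.mul_mem (hXn a x hx) (X.inv_mem hx), hbrB a x hx.2⟩
    have hβK : ⁅a, x⁆ ∈ Ka := ⟨hβW.2, Subgroup.mem_centralizer_singleton_iff.2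
      (h.fixed_bracket ha hβW.2).symm⟩
    by_cases hWK : W = Ka
    · -- then `a` lies in `T`
      set Y := Subgroup.centralizer (W : Set S) with hYdef
      have hTY : T ≤ Y := fun t ht => Subgroup.mem_centralizer_iff.2 fun w hw =>
        Subgroup.mem_centralizer_iff.1 (hTX ht) w hw.1
      have hY := h.eight.card_fixator (W := W) inf_le_right hW4 Y fun y hy w hw =>
        (Subgroup.mem_centralizer_iff.1 hy w hw).symm
      rw [← hCdef, inf_eq_right.2 (hCT.trans hTY), hC16] at hY
      have haY : a ∈ Y := Subgroup.mem_centralizer_iff.2 fun w hw => by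
        have : w ∈ Ka := hWK ▸ hw
        exact Subgroup.mem_centralizer_singleton_iff.1 this.2
      have haT : a ∈ T := (Subgroup.eq_of_le_of_card_ge hTY (by omega)).symm ▸ haY
      refine bne hx.2 hxB ha haC 1 B.one_mem ?_
      rw [commutatorElement_one_right, Eight.bracket_eq_one]
      exact ((Subgroup.mem_centralizer_iff.1 (hTX haT)) x hx).symm
    · -- then `W ∩ C_B(a) = {1, f}`
      obtain ⟨b, hb, hbW⟩ := h.eight.exists_outside hW4 inf_le_right
      have hfW : f ∈ W := by
        rw [← hbf]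
        have key : ∀ y ∈ B, ⁅a, y⁆ ∈ W := fun y hy => by
          rcases h.eight.cover inf_le_right hW4 hb hbW hy with h1 | h1
          · rw [commutatorElement_def]; exact W.mul_mem (hWn a y h1) (W.inv_mem h1)
          · have e2 : y = b * (b * y) := (h.eight.cancel hb y).symm
            rw [e2, h.eight.bracket_mul hb h1.2]
            refine W.mul_mem ?_ (by
              rw [commutatorElement_def]; exact W.mul_mem (hWn a _ h1) (W.inv_mem h1))
            have h2 := h.eight.conj_outside inf_le_right hW4 hb hbW (x := a) fun w hw => hWn a w hw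
            rw [commutatorElement_def, h.eight.inv_eq hb,
              h.eight.comm _ (h.eight.conj_mem hb a) _ hb]
            exact h2
        exact key b₀ hb₀
      have hfK : f ∈ Ka := ⟨hfB, Subgroup.mem_centralizer_singleton_iff.2 (h.acomm f hfA a ha)⟩
      have h2 : Nat.card ↥(W ⊓ Ka) ≤ 2 := by
        have hd := Subgroup.card_dvd_of_le (inf_le_left : W ⊓ Ka ≤ W)
        rw [hW4] at hd
        have := Nat.le_of_dvd (by norm_num) hd
        have hne : Nat.card ↥(W ⊓ Ka) ≠ 4 := fun h4 => hWK (by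
          have a1 : W ⊓ Ka = W := Subgroup.eq_of_le_of_card_ge inf_le_left (by omega)
          have a2 : W ⊓ Ka = Ka := Subgroup.eq_of_le_of_card_ge inf_le_right (by omega)
          exact a1.symm.trans a2)
        interval_cases hv : Nat.card ↥(W ⊓ Ka) <;> omega
      have n0 : ⁅a, x⁆ ≠ 1 := by simpa using bne hx.2 hxB ha haC 1 B.one_mem
      have nf : ⁅a, x⁆ ≠ f := hbf ▸ bne hx.2 hxB ha haC b₀ hb₀
      have h3 := finset_card_le (W ⊓ Ka) ({⁅a, x⁆, f, 1} : Finset S) (by
        simp only [Finset.mem_insert, Finset.mem_singleton]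
        rintro y (rfl | rfl | rfl)
        exacts [⟨hβW, hβK⟩, ⟨hfW, hfK⟩, Subgroup.one_mem _])
      rw [Finset.card_insert_of_notMem (by simp [n0, nf]), Finset.card_insert_of_notMem
        (by simp [hf1]), Finset.card_singleton] at h3
      omega

end Setup

/-- Harada: self-centralizing `E₈` and normal `E₈` bound the sectional rank by four. -/
theorem sectional_of_normal_eight (hS : IsPGroup 2 S) {A B : Subgroup S} (hB : Eight B)
    (hA : Cfsg.IsElementaryAbelian 2 A) (hA8 : Nat.card A = 8)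
    (hC : Subgroup.centralizer (A : Set S) = A) : Cfsg.SectionalPRankLE 2 4 S := by
  have h : Setup A B := ⟨hS, hB, fun x hx y hy => congrArg Subtype.val
      (hA.1.is_comm.comm ⟨x, hx⟩ ⟨y, hy⟩),
    fun x hx => by rw [← sq]; exact hA.2 x hx, hA8,
    fun x hx => hC ▸ Subgroup.mem_centralizer_iff.2 fun a ha => (hx a ha).symm⟩
  refine sectional_of_bound fun H N e => ?_
  show Nat.card H ≤ 2 ^ 4 * Nat.card N
  norm_num
  by_cases hCB : Subgroup.centralizer (B : Set S) = B
  · exact h.bound_small hCB e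
  obtain ⟨c, D, st⟩ := h.exists_Step hCB
  by_cases hD : Subgroup.centralizer (B : Set S) = D
  · exact h.bound_case hCB st hD e
  · exact h.bound_large hCB st hD e

/-- A normal elementary abelian subgroup of order at least eight gives one of order eight. -/
theorem exists_eight (hS : IsPGroup 2 S) (A : Subgroup S) [A.Normal]
    (hc : IsMulCommutative A) (h2 : ∀ a ∈ A, a ^ 2 = 1) (h4 : 4 < Nat.card A) :
    ∃ B : Subgroup S, Eight B := by
  obtain ⟨i, hi⟩ := two_pow_of_isPGroup hS A
  have h8 : 8 ≤ Nat.card A := by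
    rw [hi] at h4 ⊢
    have : 2 < i := (Nat.pow_lt_pow_iff_right (by norm_num : 1 < 2)).1 h4
    exact le_trans (by norm_num) (Nat.pow_le_pow_right (by norm_num) this)
  obtain ⟨B, hB, hle, hcard⟩ := exists_normal_card hS A 3 (by simpa using h8)
  exact ⟨B, hB, fun x hx y hy => congrArg Subtype.val
    (hc.is_comm.comm ⟨x, hle hx⟩ ⟨y, hle hy⟩),
    fun x hx => by rw [← sq]; exact h2 x (hle hx), by simpa using hcard⟩

end Cfsg.Agent.Harada
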