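import Cfsg.Agent.Harada.Basic

/-!
# A 2-group acting on a normal elementary abelian subgroup of order eight
-/

set_option autoImplicit false
set_option linter.all false

namespace Cfsg.Agent.Harada

open scoped commutatorElement

universe u

variable {S : Type u} [Group S] [Finite S]

/-- A normal elementary abelian subgroup of order eight. -/
structure Eight (B : Subgroup S) : Prop where
  norm : B.Normal
  comm : ∀ x ∈ B, ∀ y ∈ B, x * y = y * x
  sq : ∀ x ∈ B, x * x = 1
  card : Nat.card B = 8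

theorem finset_card_le (K : Subgroup S) (F : Finset S) (hF : ∀ x ∈ F, x ∈ K) :
    F.card ≤ Nat.card K := by
  classical
  haveI := Fintype.ofFinite K
  rw [Nat.card_eq_fintype_card, ← Fintype.card_coe F]
  exact Fintype.card_le_of_injective (fun x => (⟨x.1, hF x.1 x.2⟩ : K)) fun x y h =>
    Subtype.ext (congrArg (fun z : K => (z : S)) h)

namespace Eight

variable {B : Subgroup S} (hB : Eight B)
include hB

theorem inv_eq {b : S} (hb : b ∈ B) : b⁻¹ = b := inv_eq_of_mul_eq_one_right (hB.sq b hb)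

theorem cancel {b : S} (hb : b ∈ B) (c : S) : b * (b * c) = c := by
  rw [← mul_assoc, hB.sq b hb, one_mul]

theorem conj_mem {b : S} (hb : b ∈ B) (s : S) : s * b * s⁻¹ ∈ B := hB.norm.conj_mem b hb s

theorem bracket_mem {b : S} (hb : b ∈ B) (s : S) : ⁅s, b⁆ ∈ B := by
  rw [commutatorElement_def]; exact B.mul_mem (hB.conj_mem hb s) (B.inv_mem hb)

omit hB in
theorem bracket_eq_one {s b : S} : ⁅s, b⁆ = 1 ↔ s * b = b * s :=
  commutatorElement_eq_one_iff_mul_comm

theorem bracket_mul {b b' : S} (hb : b ∈ B) (hb' : b' ∈ B) (s : S) :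
    ⁅s, b * b'⁆ = ⁅s, b⁆ * ⁅s, b'⁆ := by
  simp only [commutatorElement_def]
  have h1 : s * (b * b') * s⁻¹ * (b * b')⁻¹ = s * b * s⁻¹ * (s * b' * s⁻¹ * b'⁻¹ * b⁻¹) := by group
  rw [h1, hB.comm _ (B.mul_mem (hB.conj_mem hb' s) (B.inv_mem hb')) _ (B.inv_mem hb)]
  group

theorem exists_notMem (F : Finset S) (hF : F.card < 8) : ∃ b ∈ B, b ∉ F := by
  classical
  by_contra h
  push Not at h
  haveI := Fintype.ofFinite B
  have h1 : Nat.card B ≤ F.card := by
    rw [Nat.card_eq_fintype_card, ← Finset.card_univ]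
    exact Finset.card_le_card_of_injOn (fun b : B => (b : S)) (fun b _ => h b b.2)
      (fun x _ y _ e => Subtype.ext e)
  rw [hB.card] at h1
  omega

theorem cover {W : Subgroup S} (hW : W ≤ B) (h4 : Nat.card W = 4) {b₀ : S} (hb₀ : b₀ ∈ B)
    (hn : b₀ ∉ W) {b : S} (hb : b ∈ B) : b ∈ W ∨ b₀ * b ∈ W := by
  let f : W × Bool → B := fun p =>
    if p.2 then ⟨b₀ * p.1, B.mul_mem hb₀ (hW p.1.2)⟩ else ⟨p.1, hW p.1.2⟩
  have hinj : Function.Injective f := by
    rintro ⟨⟨w, hw⟩, i⟩ ⟨⟨w', hw'⟩, j⟩ h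
    cases i <;> cases j <;> simp only [f] at h <;> simp at h
    · simp [h]
    · exfalso; apply hn
      have : b₀ = w * w'⁻¹ := by rw [h]; group
      rw [this]; exact W.mul_mem hw (W.inv_mem hw')
    · exfalso; apply hn
      have : b₀ = w' * w⁻¹ := by rw [← h]; group
      rw [this]; exact W.mul_mem hw' (W.inv_mem hw)
    · simp [h]
  have hsurj := (hinj.bijective_of_nat_card_le
    (by rw [Nat.card_prod, h4, hB.card]; simp)).2 ⟨b, hb⟩
  obtain ⟨⟨⟨w, hw⟩, i⟩, h⟩ := hsurj
  cases i <;> simp [f] at h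
  · exact Or.inl (h ▸ hw)
  · right; rw [← h, hB.cancel hb₀]; exact hw

theorem card_cases {K : Subgroup S} (hK : K ≤ B) :
    Nat.card K = 1 ∨ Nat.card K = 2 ∨ Nat.card K = 4 ∨ Nat.card K = 8 := by
  have h := Subgroup.card_dvd_of_le hK
  rw [hB.card] at h
  have h8 := Nat.le_of_dvd (by norm_num) h
  interval_cases hn : Nat.card K <;> simp_all (config := {decide := true})

theorem eq_of_card_gt {K : Subgroup S} (hK : K ≤ B) (h : 4 < Nat.card K) : K = B := by
  refine Subgroup.eq_of_le_of_card_ge hK ?_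
  rcases hB.card_cases hK with e | e | e | e <;> rw [hB.card] <;> omega

/-- An element squaring into the centralizer fixes a hyperplane and moves along a line. -/
theorem invol_data {x : S} (hx2 : x * x ∈ Subgroup.centralizer (B : Set S))
    (hx : x ∉ Subgroup.centralizer (B : Set S)) :
    ∃ f b₀, Nat.card ↥(B ⊓ Subgroup.centralizer ({x} : Set S)) = 4 ∧ f ∈ B ∧ f ≠ 1 ∧
      x * f = f * x ∧ b₀ ∈ B ∧ ⁅x, b₀⁆ = f ∧ ∀ b ∈ B, ⁅x, b⁆ = 1 ∨ ⁅x, b⁆ = f := by
  classical
  set K := B ⊓ Subgroup.centralizer ({x} : Set S) with hK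
  have memK : ∀ b, b ∈ K ↔ b ∈ B ∧ x * b = b * x := fun b => by
    rw [hK, Subgroup.mem_inf, Subgroup.mem_centralizer_singleton_iff]; exact and_congr_right fun _ => eq_comm
  have hfix : ∀ b ∈ B, x * ⁅x, b⁆ = ⁅x, b⁆ * x := by
    intro b hb
    have h2 : b * (x * x) = x * x * b := Subgroup.mem_centralizer_iff.1 hx2 b hb
    have h1 : x * ⁅x, b⁆ * x⁻¹ = ⁅x, b⁆⁻¹ := by
      simp only [commutatorElement_def]
      calc x * (x * b * x⁻¹ * b⁻¹) * x⁻¹
          = (x * x * b) * (x * x)⁻¹ * (x * b * x⁻¹)⁻¹ := by group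
        _ = b * (x * x) * (x * x)⁻¹ * (x * b * x⁻¹)⁻¹ := by rw [h2]
        _ = (x * b * x⁻¹ * b⁻¹)⁻¹ := by group
    rw [hB.inv_eq (hB.bracket_mem hb x), mul_inv_eq_iff_eq_mul] at h1
    exact h1
  have hinK : ∀ b ∈ B, ⁅x, b⁆ ∈ K := fun b hb => (memK _).2 ⟨hB.bracket_mem hb x, hfix b hb⟩
  have h8 : Nat.card B ≤ Nat.card K * Nat.card K := by
    refine card_le_mul_inter B (Subgroup.centralizer ({x} : Set S))
      (fun b => if h : ⁅x, b⁆ ∈ K then (⟨_, h⟩ : K) else 1) fun b hb c hc e => ?_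
    rw [dif_pos (hinK b hb), dif_pos (hinK c hc)] at e
    have e' : ⁅x, b⁆ = ⁅x, c⁆ := congrArg Subtype.val e
    rw [Subgroup.mem_centralizer_singleton_iff, eq_comm, ← bracket_eq_one,
      hB.bracket_mul (B.inv_mem hb) hc, ← e', ← hB.bracket_mul (B.inv_mem hb) hb, inv_mul_cancel]
    simp
  rw [hB.card] at h8
  have hne : Nat.card K ≠ 8 := fun h => hx (Subgroup.mem_centralizer_iff.2 fun b hb => by
    have e : K = B := hB.eq_of_card_gt inf_le_left (by omega)
    exact (((memK b).1 (e ▸ hb)).2).symm)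
  have h4 : Nat.card K = 4 := by
    rcases hB.card_cases (K := K) inf_le_left with e | e | e | e
    · rw [e] at h8; omega
    · rw [e] at h8; omega
    · exact e
    · exact absurd e hne
  obtain ⟨b₀, hb₀, hb₀K⟩ : ∃ b ∈ B, b ∉ K := by
    by_contra hc
    push Not at hc
    have := Subgroup.card_dvd_of_le (show B ≤ K from hc)
    rw [hB.card, h4] at this
    norm_num at this
  refine ⟨⁅x, b₀⁆, b₀, h4, hB.bracket_mem hb₀ x, fun h => hb₀K ((memK _).2 ⟨hb₀, bracket_eq_one.1 h⟩),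
    hfix b₀ hb₀, hb₀, rfl, fun b hb => ?_⟩
  rcases hB.cover inf_le_left h4 hb₀ hb₀K hb with h | h
  · exact Or.inl (bracket_eq_one.2 ((memK b).1 h).2)
  · right
    have h1 := bracket_eq_one.2 ((memK _).1 h).2
    rw [hB.bracket_mul hb₀ hb, mul_eq_one_iff_eq_inv, hB.inv_eq (hB.bracket_mem hb x)] at h1
    exact h1.symm

omit hB in
theorem eq_of_conj {x y b : S} (h : x * b * x⁻¹ = y * b * y⁻¹) : x⁻¹ * y * b = b * (x⁻¹ * y) := by
  calc x⁻¹ * y * b = x⁻¹ * (y * b * y⁻¹) * y := by group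
    _ = x⁻¹ * (x * b * x⁻¹) * y := by rw [h]
    _ = b * (x⁻¹ * y) := by group

/-- Elements fixing `W` pointwise and agreeing on one further element agree on `B`. -/
theorem mem_centralizer_of {W : Subgroup S} (hW : W ≤ B) {b : S} (hb : b ∈ B) (hbW : b ∉ W)
    (h4 : Nat.card W = 4) {y : S} (h1 : ∀ w ∈ W, y * w = w * y) (h2 : y * b = b * y) :
    y ∈ Subgroup.centralizer (B : Set S) := by
  rw [Subgroup.mem_centralizer_iff]
  intro c hc
  rcases hB.cover hW h4 hb hbW hc with h | h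
  · exact (h1 c h).symm
  · have hcomm : y * (b * (b * c)) = b * (b * c) * y :=
      ((show Commute y b from h2).mul_right (h1 _ h)).eq
    rw [hB.cancel hb] at hcomm
    exact hcomm.symm

theorem conj_outside {W : Subgroup S} (hW : W ≤ B) (h4 : Nat.card W = 4) {x b : S} (hb : b ∈ B)
    (hbW : b ∉ W) (hx : ∀ w ∈ W, x * w * x⁻¹ ∈ W) : b * (x * b * x⁻¹) ∈ W := by
  rcases hB.cover hW h4 hb hbW (hB.conj_mem hb x) with h | h
  · exfalso
    apply hbW
    let f : W → W := fun w => ⟨x * w * x⁻¹, hx w w.2⟩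
    have hf : Function.Injective f := fun p q e =>
      Subtype.ext (by simpa [f] using congrArg Subtype.val e)
    obtain ⟨w, hw⟩ := (Finite.injective_iff_surjective.1 hf) ⟨_, h⟩
    have : x * (w : S) * x⁻¹ = x * b * x⁻¹ := congrArg Subtype.val hw
    simp at this
    exact this ▸ w.2
  · exact h

theorem exists_outside {W : Subgroup S} (h4 : Nat.card W = 4) (hW : W ≤ B) : ∃ b ∈ B, b ∉ W := by
  by_contra hc
  push Not at hc
  have := Subgroup.card_dvd_of_le (show B ≤ W from hc)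
  rw [hB.card, h4] at this
  norm_num at this

/-- The pointwise stabilizer of a hyperplane. -/
theorem card_fixator {W : Subgroup S} (hW : W ≤ B) (h4 : Nat.card W = 4) (X : Subgroup S)
    (hX : ∀ x ∈ X, ∀ w ∈ W, x * w = w * x) :
    Nat.card X ≤ 4 * Nat.card ↥(X ⊓ Subgroup.centralizer (B : Set S)) := by
  classical
  obtain ⟨b, hb, hbW⟩ := hB.exists_outside h4 hW
  have hin : ∀ x ∈ X, b * (x * b * x⁻¹) ∈ W := fun x hx =>
    hB.conj_outside hW h4 hb hbW fun w hw => by rwa [hX x hx w hw, mul_inv_cancel_right]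
  have := card_le_mul_inter X (Subgroup.centralizer (B : Set S))
    (fun x => if h : b * (x * b * x⁻¹) ∈ W then (⟨_, h⟩ : W) else 1) fun x hx y hy e => ?_
  · rwa [h4] at this
  rw [dif_pos (hin x hx), dif_pos (hin y hy)] at e
  refine hB.mem_centralizer_of hW hb hbW h4
    (fun w hw => ?_) (eq_of_conj (mul_left_cancel (congrArg Subtype.val e)))
  apply eq_of_conj
  rw [hX x hx w hw, hX y hy w hw, mul_inv_cancel_right, mul_inv_cancel_right]

/-- The stabilizer of a point acting trivially on the quotient. -/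
theorem card_transvections {n : S} (hn : n ∈ B) (hn1 : n ≠ 1) (X : Subgroup S)
    (hXn : ∀ x ∈ X, x * n = n * x) (hX : ∀ x ∈ X, ∀ b ∈ B, ⁅x, b⁆ = 1 ∨ ⁅x, b⁆ = n) :
    Nat.card X ≤ 4 * Nat.card ↥(X ⊓ Subgroup.centralizer (B : Set S)) := by
  classical
  obtain ⟨b₁, hb₁, h1⟩ := hB.exists_notMem {1, n} ((Finset.card_le_two).trans_lt (by norm_num))
  obtain ⟨b₂, hb₂, h2⟩ := hB.exists_notMem {1, n, b₁, n * b₁}
    ((Finset.card_le_four).trans_lt (by norm_num))
  simp only [Finset.mem_insert, Finset.mem_singleton, not_or] at h1 h2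
  have := card_le_mul_inter X (Subgroup.centralizer (B : Set S))
    (fun x => (decide (⁅x, b₁⁆ = 1), decide (⁅x, b₂⁆ = 1))) fun x hx y hy e => ?_
  · simpa [Nat.card_prod] using this
  simp only [Prod.mk.injEq, decide_eq_decide] at e
  have agree : ∀ b ∈ B, (⁅x, b⁆ = 1 ↔ ⁅y, b⁆ = 1) → x⁻¹ * y * b = b * (x⁻¹ * y) := by
    intro b hb hiff
    apply eq_of_conj
    have : ⁅x, b⁆ = ⁅y, b⁆ := by
      rcases hX x hx b hb with h | h <;> rcases hX y hy b hb with h' | h'
      · rw [h, h']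
      · exact absurd ((hiff.1 h).symm.trans h') (Ne.symm hn1)
      · exact absurd ((hiff.2 h').symm.trans h) (Ne.symm hn1)
      · rw [h, h']
    simpa [commutatorElement_def] using this
  set K := B ⊓ Subgroup.centralizer ({x⁻¹ * y} : Set S) with hK
  have memK : ∀ b, b ∈ B → x⁻¹ * y * b = b * (x⁻¹ * y) → b ∈ K := fun b hb h =>
    Subgroup.mem_inf.2 ⟨hb, Subgroup.mem_centralizer_singleton_iff.2 h.symm⟩
  have k1 := memK b₁ hb₁ (agree b₁ hb₁ e.1)
  have k2 := memK b₂ hb₂ (agree b₂ hb₂ e.2)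
  have kn := memK n hn (eq_of_conj (by
    rw [hXn x hx, hXn y hy, mul_inv_cancel_right, mul_inv_cancel_right]))
  have hK5 : 5 ≤ Nat.card K := by
    have d1 : n * b₁ ≠ 1 := fun h => h1.2 (by rw [← hB.inv_eq hn]; exact eq_inv_of_mul_eq_one_right h)
    have d2 : n * b₁ ≠ n := fun h => h1.1 (mul_eq_left.1 h)
    have d3 : n * b₁ ≠ b₁ := fun h => hn1 (mul_eq_right.1 h)
    have hcard : ({b₂, n * b₁, b₁, n, 1} : Finset S).card = 5 := by
      rw [Finset.card_insert_of_notMem, Finset.card_insert_of_notMem,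
        Finset.card_insert_of_notMem, Finset.card_insert_of_notMem, Finset.card_singleton]
      all_goals simp only [Finset.mem_insert, Finset.mem_singleton, not_or]
      · exact hn1
      · exact ⟨h1.2, h1.1⟩
      · exact ⟨d3, d2, d1⟩
      · exact ⟨h2.2.2.2, h2.2.2.1, h2.2.1, h2.1⟩
    rw [← hcard]
    refine finset_card_le K _ ?_
    simp only [Finset.mem_insert, Finset.mem_singleton]
    rintro c (rfl | rfl | rfl | rfl | rfl)
    exacts [k2, K.mul_mem kn k1, k1, kn, K.one_mem]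
  have hKB : K = B := hB.eq_of_card_gt inf_le_left (by omega)
  rw [Subgroup.mem_centralizer_iff]
  intro c hc
  have : c ∈ K := hKB ▸ hc
  exact Subgroup.mem_centralizer_singleton_iff.1 (Subgroup.mem_inf.1 this).2

/-- A subgroup inducing an elementary abelian group induces at most four automorphisms. -/
theorem card_elementary (X : Subgroup S)
    (h2 : ∀ x ∈ X, x * x ∈ Subgroup.centralizer (B : Set S))
    (hc : ∀ x ∈ X, ∀ y ∈ X, x * y * x⁻¹ * y⁻¹ ∈ Subgroup.centralizer (B : Set S)) :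
    Nat.card X ≤ 4 * Nat.card ↥(X ⊓ Subgroup.centralizer (B : Set S)) := by
  by_cases hXC : X ≤ Subgroup.centralizer (B : Set S)
  · rw [inf_eq_left.2 hXC]; omega
  obtain ⟨x, hx, hxC⟩ := SetLike.not_le_iff_exists.1 hXC
  have fixedf : ∀ x ∈ X, ∀ f, f ≠ 1 → f ∈ B → (∃ b ∈ B, ⁅x, b⁆ = f) →
      (∀ b ∈ B, ⁅x, b⁆ = 1 ∨ ⁅x, b⁆ = f) → ∀ y ∈ X, y * f = f * y := by
    intro x hx f hf1 hfB hex hall y hy
    obtain ⟨b, hb, hbf⟩ := hex
    have hbb : y * b * y⁻¹ ∈ B := hB.conj_mem hb y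
    have hxb : x * b * x⁻¹ ∈ B := hB.conj_mem hb x
    have key : y * f * y⁻¹ = ⁅x, y * b * y⁻¹⁆ := by
      have hz := Subgroup.mem_centralizer_iff.1 (hc y hy x hx) (x * (y * b * y⁻¹) * x⁻¹)
        (hB.conj_mem hbb x)
      rw [← hbf]
      simp only [commutatorElement_def]
      calc y * (x * b * x⁻¹ * b⁻¹) * y⁻¹
          = ((y * x * y⁻¹ * x⁻¹) * (x * (y * b * y⁻¹) * x⁻¹)) * (y * x * y⁻¹ * x⁻¹)⁻¹ *
              (y * b * y⁻¹)⁻¹ := by group
        _ = x * (y * b * y⁻¹) * x⁻¹ * (y * b * y⁻¹)⁻¹ := by rw [← hz]; group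
    rcases hall _ hbb with h | h
    · rw [h] at key
      exfalso; apply hf1
      have : f = 1 := by simpa using key
      exact this
    · rw [h, mul_inv_eq_iff_eq_mul] at key; exact key
  obtain ⟨f, b₀, hK4, hfB, hf1, hxf, hb₀, hb₀f, hall⟩ := hB.invol_data (h2 x hx) hxC
  set F := B ⊓ Subgroup.centralizer (X : Set S) with hF
  have memF : ∀ b, b ∈ F ↔ b ∈ B ∧ ∀ y ∈ X, y * b = b * y := fun b => by
    rw [hF, Subgroup.mem_inf, Subgroup.mem_centralizer_iff]; rfl
  have hfF : f ∈ F := (memF f).2 ⟨hfB, fixedf x hx f hf1 hfB ⟨b₀, hb₀, hb₀f⟩ hall⟩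
  rcases hB.card_cases (K := F) inf_le_left with e | e | e | e
  · exfalso; apply hf1
    rw [Subgroup.card_eq_one] at e
    rw [e] at hfF; exact hfF
  · refine hB.card_transvections hfB hf1 X ((memF f).1 hfF).2 fun y hy b hb => ?_
    by_cases hyC : y ∈ Subgroup.centralizer (B : Set S)
    · exact Or.inl (bracket_eq_one.2 (Subgroup.mem_centralizer_iff.1 hyC b hb).symm)
    obtain ⟨f', b', -, hf'B, hf'1, -, hb', hb'f, hall'⟩ := hB.invol_data (h2 y hy) hyC
    have hf'F : f' ∈ F := (memF f').2 ⟨hf'B, fixedf y hy f' hf'1 hf'B ⟨b', hb', hb'f⟩ hall'⟩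
    obtain ⟨u, -, huniq⟩ := (Nat.card_eq_two_iff' (1 : F)).1 e
    have h1 := huniq ⟨f, hfF⟩ fun h => hf1 (congrArg Subtype.val h)
    have h2' := huniq ⟨f', hf'F⟩ fun h => hf'1 (congrArg Subtype.val h)
    have : f' = f := congrArg Subtype.val (h2'.trans h1.symm)
    exact this ▸ hall' b hb
  · exact hB.card_fixator inf_le_left e X fun y hy w hw => ((memF w).1 hw).2 y hy
  · exfalso; apply hxC
    have hFB : F = B := hB.eq_of_card_gt inf_le_left (by omega)
    exact Subgroup.mem_centralizer_iff.2 fun b hb => (((memF b).1 (hFB ▸ hb)).2 x hx).symm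

/-- A 2-group induces at most eight automorphisms on `B`. -/
theorem card_le_eight (hS : IsPGroup 2 S) (X : Subgroup S) :
    Nat.card X ≤ 8 * Nat.card ↥(X ⊓ Subgroup.centralizer (B : Set S)) := by
  classical
  haveI := hB.norm
  obtain ⟨W, hWn, hWB, hW4⟩ := exists_normal_card hS B 2 (by rw [hB.card]; norm_num)
  haveI := hWn
  obtain ⟨U, hUn, hUW, hU2⟩ := exists_normal_card hS W 1 (by rw [hW4]; norm_num)
  norm_num at hW4 hU2
  obtain ⟨⟨u, huU⟩, hu1, huniq⟩ := (Nat.card_eq_two_iff' (1 : U)).1 hU2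
  have hu1' : u ≠ 1 := fun h => hu1 (Subtype.ext h)
  have hUel : ∀ v ∈ U, v = 1 ∨ v = u := fun v hv => by
    by_cases h : v = 1
    · exact Or.inl h
    · exact Or.inr (congrArg Subtype.val (huniq ⟨v, hv⟩ fun e => h (congrArg Subtype.val e)))
  have hucent : ∀ s : S, s * u * s⁻¹ = u := fun s => by
    rcases hUel _ (hUn.conj_mem u huU s) with h | h
    · exfalso; apply hu1'; simpa using h
    · exact h
  obtain ⟨w, hw, hwU⟩ : ∃ w ∈ W, w ∉ U := by
    by_contra hc
    push Not at hc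
    have := Subgroup.card_dvd_of_le (show W ≤ U from hc)
    rw [hW4, hU2] at this
    norm_num at this
  obtain ⟨b, hb, hbW⟩ := hB.exists_outside hW4 hWB
  have hWel : ∀ v ∈ W, v = 1 ∨ v = u ∨ v = w ∨ v = u * w := by
    intro v hv
    by_contra hcon
    simp only [not_or] at hcon
    have hw1 : w ≠ 1 := fun h => hwU (h ▸ U.one_mem)
    have hwu : w ≠ u := fun h => hwU (h ▸ huU)
    have d1 : u * w ≠ 1 := fun h => hwu (by
      rw [← hB.inv_eq (hWB (hUW huU))]; exact eq_inv_of_mul_eq_one_right h)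
    have d2 : u * w ≠ u := fun h => hw1 (mul_eq_left.1 h)
    have d3 : u * w ≠ w := fun h => hu1' (mul_eq_right.1 h)
    have hcard : ({v, u * w, w, u, 1} : Finset S).card = 5 := by
      rw [Finset.card_insert_of_notMem, Finset.card_insert_of_notMem,
        Finset.card_insert_of_notMem, Finset.card_insert_of_notMem, Finset.card_singleton]
      all_goals simp only [Finset.mem_insert, Finset.mem_singleton, not_or]
      · exact hu1'
      · exact ⟨hwu, hw1⟩
      · exact ⟨d3, d2, d1⟩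
      · exact ⟨hcon.2.2.2, hcon.2.2.1, hcon.2.1, hcon.1⟩
    have h5 := finset_card_le W ({v, u * w, w, u, 1} : Finset S) (by
      simp only [Finset.mem_insert, Finset.mem_singleton]
      rintro c (rfl | rfl | rfl | rfl | rfl)
      exacts [hv, W.mul_mem (hUW huU) hw, hw, hUW huU, W.one_mem])
    omega
  have hwimg : ∀ x : S, x * w * x⁻¹ = w ∨ x * w * x⁻¹ = u * w := fun x => by
    rcases hWel _ (hWn.conj_mem w hw x) with h | h | h | h
    · exfalso; apply hwU
      have : w = 1 := by simpa using h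
      exact this ▸ U.one_mem
    · exfalso; apply hwU
      have : w = x⁻¹ * u * x := by rw [← h]; group
      rw [this]
      simpa using hUn.conj_mem u huU x⁻¹
    · exact Or.inl h
    · exact Or.inr h
  have hin : ∀ x : S, b * (x * b * x⁻¹) ∈ W := fun x =>
    hB.conj_outside hWB hW4 hb hbW fun v hv => hWn.conj_mem v hv x
  have := card_le_mul_inter X (Subgroup.centralizer (B : Set S))
    (fun x => ((⟨_, hin x⟩ : W), decide (x * w * x⁻¹ = w))) fun x hx y hy e => ?_
  · simpa [Nat.card_prod, hW4] using this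
  simp only [Prod.mk.injEq, decide_eq_decide] at e
  refine hB.mem_centralizer_of hWB hb hbW hW4 ?_ (eq_of_conj (mul_left_cancel (congrArg Subtype.val e.1)))
  have hwagree : x * w * x⁻¹ = y * w * y⁻¹ := by
    rcases hwimg x with h | h <;> rcases hwimg y with h' | h'
    · rw [h, h']
    · rw [h, e.2.1 h]
    · rw [e.2.2 h', h']
    · rw [h, h']
  have cu : Commute (x⁻¹ * y) u := eq_of_conj (by rw [hucent, hucent])
  have cw : Commute (x⁻¹ * y) w := eq_of_conj hwagree
  intro v hv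
  rcases hWel v hv with rfl | rfl | rfl | rfl
  · simp
  · exact cu.eq
  · exact cw.eq
  · exact (cu.mul_right cw).eq

/-- An elementary abelian section induces at most four automorphisms. -/
theorem quotient_bound (hS : IsPGroup 2 S) {H N : Subgroup S} (e : Elem2 H N) :
    Nat.card H * Nat.card ↥(N ⊓ Subgroup.centralizer (B : Set S)) ≤
      4 * Nat.card N * Nat.card ↥(H ⊓ Subgroup.centralizer (B : Set S)) := by
  set C := Subgroup.centralizer (B : Set S)
  by_cases hN : N ≤ C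
  · have := hB.card_elementary H (fun x hx => hN (e.sq x hx))
      (fun x hx y hy => hN (e.comm x hx y hy))
    rw [inf_eq_left.2 hN]
    calc Nat.card H * Nat.card N ≤ 4 * Nat.card ↥(H ⊓ C) * Nat.card N :=
          Nat.mul_le_mul_right _ this
      _ = _ := by ring
  · have h2 : 2 * Nat.card ↥(N ⊓ C) ≤ Nat.card N := by
      obtain ⟨k, hk⟩ := Subgroup.card_dvd_of_le (inf_le_left : N ⊓ C ≤ N)
      have hne : Nat.card N ≠ Nat.card ↥(N ⊓ C) := fun h =>
        hN (inf_eq_left.1 (Subgroup.eq_of_le_of_card_ge inf_le_left (le_of_eq h)))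
      have hpos : 0 < Nat.card N := Nat.card_pos
      rcases k with _ | _ | k
      · simp at hk; omega
      · simp at hk; exact absurd hk hne
      · rw [hk]; nlinarith
    have h8 := hB.card_le_eight hS H
    calc Nat.card H * Nat.card ↥(N ⊓ C) ≤ 8 * Nat.card ↥(H ⊓ C) * Nat.card ↥(N ⊓ C) :=
          Nat.mul_le_mul_right _ h8
      _ = 4 * (2 * Nat.card ↥(N ⊓ C)) * Nat.card ↥(H ⊓ C) := by ring
      _ ≤ _ := Nat.mul_le_mul_right _ (Nat.mul_le_mul_left _ h2)

end Eight

end Cfsg.Agent.Harada
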