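import Cfsg.Agent.Harada.Linear
import Cfsg.Agent.TwoGroups.MaxClassCriterion

/-!
# A self-centralizing elementary abelian subgroup of order eight in a 2-group with a normal one

Harada's bound: the sectional rank is then at most four.
-/

set_option autoImplicit false
set_option linter.all false

namespace Cfsg.Agent.Harada

open scoped commutatorElement

universe u

variable {S : Type u} [Group S] [Finite S]

theorem two_pow_of_isPGroup (hS : IsPGroup 2 S) (H : Subgroup S) : ∃ i, Nat.card H = 2 ^ i := by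
  haveI : Fact (Nat.Prime 2) := ⟨Nat.prime_two⟩
  exact IsPGroup.iff_card.1 (hS.to_subgroup H)

theorem big_of_lt (hS : IsPGroup 2 S) {H N : Subgroup S} (h : 16 * Nat.card N < Nat.card H) :
    32 * Nat.card N ≤ Nat.card H := by
  obtain ⟨i, hi⟩ := two_pow_of_isPGroup hS H
  obtain ⟨j, hj⟩ := two_pow_of_isPGroup hS N
  rw [hi, hj] at h ⊢
  rw [show (16 : ℕ) = 2 ^ 4 by norm_num, ← pow_add] at h
  rw [show (32 : ℕ) = 2 ^ 5 by norm_num, ← pow_add]
  exact Nat.pow_le_pow_right (by norm_num)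
    (by have := (Nat.pow_lt_pow_iff_right (by norm_num : 1 < 2)).1 h; omega)

/-- `A` is self-centralizing elementary abelian and `B` is normal elementary abelian, both of order
eight. -/
structure Setup (A B : Subgroup S) : Prop where
  two : IsPGroup 2 S
  eight : Eight B
  acomm : ∀ x ∈ A, ∀ y ∈ A, x * y = y * x
  asq : ∀ x ∈ A, x * x = 1
  acard : Nat.card A = 8
  self : ∀ x, (∀ a ∈ A, x * a = a * x) → x ∈ A

namespace Setup

variable {A B : Subgroup S} (h : Setup A B)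
include h

local notation "𝐂" => Subgroup.centralizer (B : Set S)

theorem B_le : B ≤ Subgroup.centralizer (B : Set S) := fun x hx =>
  Subgroup.mem_centralizer_iff.2 fun b hb => h.eight.comm b hb x hx

omit h in
theorem comm_C {x b : S} (hx : x ∈ Subgroup.centralizer (B : Set S)) (hb : b ∈ B) :
    x * b = b * x :=
  (Subgroup.mem_centralizer_iff.1 hx b hb).symm

theorem C_normal : (Subgroup.centralizer (B : Set S)).Normal := ⟨fun n hn g => by
  rw [Subgroup.mem_centralizer_iff]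
  intro b hb
  have h1 : g⁻¹ * b * g ∈ B := by simpa using h.eight.conj_mem hb g⁻¹
  have h2 := comm_C hn h1
  calc b * (g * n * g⁻¹) = g * ((g⁻¹ * b * g) * n) * g⁻¹ := by group
    _ = g * (n * (g⁻¹ * b * g)) * g⁻¹ := by rw [h2]
    _ = g * n * g⁻¹ * b := by group⟩

theorem A_eq_of_five {K : Subgroup S} (hK : K ≤ A) (h5 : 4 < Nat.card K) : K = A := by
  refine Subgroup.eq_of_le_of_card_ge hK ?_
  have hd := Subgroup.card_dvd_of_le hK
  rw [h.acard] at hd ⊢
  have := Nat.le_of_dvd (by norm_num) hd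
  interval_cases Nat.card K <;> simp_all (config := {decide := true})

theorem A_inv {a : S} (ha : a ∈ A) : a⁻¹ = a := inv_eq_of_mul_eq_one_right (h.asq a ha)

theorem exists_central : ∃ u ∈ A, u ∈ B ∧ u ≠ 1 := by
  haveI := h.eight.norm
  obtain ⟨u, hu, hu1, -, hus⟩ := exists_step h.two ⊥ B bot_le (fun e => by
    have := h.eight.card
    rw [← e, Subgroup.card_bot] at this
    omega)
  refine ⟨u, h.self u fun a _ => ?_, hu, fun e => hu1 (e ▸ Subgroup.one_mem _)⟩
  have := hus a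
  rw [Subgroup.mem_bot, mul_inv_eq_one, mul_inv_eq_iff_eq_mul] at this
  exact this.symm

variable (hC : Subgroup.centralizer (B : Set S) ≠ B)
include hC

theorem not_le : ¬ A ≤ Subgroup.centralizer (B : Set S) := fun hle => hC (by
  have hBA : B ≤ A := fun b hb => h.self b fun a ha => (comm_C (hle ha) hb).symm
  have hAB : B = A := Subgroup.eq_of_le_of_card_ge hBA (by rw [h.acard, h.eight.card])
  refine le_antisymm (fun x hx => hAB ▸ h.self x fun a ha => comm_C hx (hAB ▸ ha)) h.B_le)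

theorem mem_B {a : S} (ha : a ∈ A) (haC : a ∈ Subgroup.centralizer (B : Set S)) : a ∈ B := by
  by_contra haB
  obtain ⟨x, hx, hxC⟩ := SetLike.not_le_iff_exists.1 (h.not_le hC)
  obtain ⟨f, b₀, hK4, -⟩ := h.eight.invol_data (by rw [h.asq x hx]; exact Subgroup.one_mem _) hxC
  obtain ⟨u, huA, huB, hu1⟩ := h.exists_central
  set K := B ⊓ Subgroup.centralizer ({x} : Set S) with hK
  -- every element of `A` commutes with `K`
  have hall : A ⊓ Subgroup.centralizer (K : Set S) = A := by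
    refine h.A_eq_of_five inf_le_left ?_
    have inC : ∀ y ∈ A, y ∈ Subgroup.centralizer (B : Set S) →
        y ∈ A ⊓ Subgroup.centralizer (K : Set S) := fun y hy hyC =>
      ⟨hy, Subgroup.mem_centralizer_iff.2 fun k hk => (comm_C hyC hk.1).symm⟩
    have hxK : x ∈ A ⊓ Subgroup.centralizer (K : Set S) :=
      ⟨hx, Subgroup.mem_centralizer_iff.2 fun k hk =>
        (Subgroup.mem_centralizer_singleton_iff.1 hk.2)⟩
    have hP := inC u huA (h.B_le huB)
    have ha' := inC a ha haC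
    have d1 : a ≠ 1 := fun e => haB (e ▸ B.one_mem)
    have d2 : a ≠ u := fun e => haB (e ▸ huB)
    have d3 : u * a ≠ 1 := fun e => d2 (by
      rw [← h.A_inv huA]; exact eq_inv_of_mul_eq_one_right e)
    have d4 : u * a ≠ u := fun e => d1 (mul_eq_left.1 e)
    have d5 : u * a ≠ a := fun e => hu1 (mul_eq_right.1 e)
    have hxne : ∀ y, y ∈ Subgroup.centralizer (B : Set S) → x ≠ y := fun y hy e => hxC (e ▸ hy)
    classical
    have hcard : ({x, u * a, a, u, 1} : Finset S).card = 5 := by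
      rw [Finset.card_insert_of_notMem, Finset.card_insert_of_notMem,
        Finset.card_insert_of_notMem, Finset.card_insert_of_notMem, Finset.card_singleton]
      all_goals simp only [Finset.mem_insert, Finset.mem_singleton, not_or]
      · exact hu1
      · exact ⟨d2, d1⟩
      · exact ⟨d5, d4, d3⟩
      · exact ⟨hxne _ (mul_mem (h.B_le huB) haC), hxne _ haC, hxne _ (h.B_le huB),
          hxne _ (Subgroup.one_mem _)⟩
    have h5 := finset_card_le (A ⊓ Subgroup.centralizer (K : Set S))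
      ({x, u * a, a, u, 1} : Finset S) (by
        simp only [Finset.mem_insert, Finset.mem_singleton]
        rintro y (rfl | rfl | rfl | rfl | rfl)
        exacts [hxK, mul_mem hP ha', ha', hP, Subgroup.one_mem _])
    omega
  -- hence `K ≤ A ∩ B`, and `A ∩ B` with `a` gives all of `A` inside the centralizer
  have hKA : K ≤ A ⊓ B := fun k hk => ⟨h.self k fun y hy => by
    have : y ∈ A ⊓ Subgroup.centralizer (K : Set S) := hall.symm ▸ hy
    exact Subgroup.mem_centralizer_iff.1 this.2 k hk, hk.1⟩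
  have h4 : 4 ≤ Nat.card ↥(A ⊓ B) := by
    rw [← hK4]; exact Subgroup.card_le_of_le hKA
  have hlt : A ⊓ B < A ⊓ Subgroup.centralizer (B : Set S) := lt_of_le_of_ne
    (inf_le_inf_left A h.B_le) fun e => haB (by
      have : a ∈ A ⊓ B := e ▸ Subgroup.mem_inf.2 ⟨ha, haC⟩
      exact this.2)
  have h5 : 4 < Nat.card ↥(A ⊓ Subgroup.centralizer (B : Set S)) := by
    by_contra hle
    exact hlt.ne (Subgroup.eq_of_le_of_card_ge hlt.le (by omega))
  exact hxC ((h.A_eq_of_five inf_le_left h5).symm ▸ hx : x ∈ A ⊓ _).2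

theorem fixed_mem {x : S} (hx : x ∈ Subgroup.centralizer (B : Set S))
    (hfix : ∀ a ∈ A, x * a = a * x) : x ∈ B := h.mem_B hC (h.self x hfix) hx

theorem exists_four {a : S} (ha : a ∈ A) (haC : a ∉ Subgroup.centralizer (B : Set S)) :
    ∃ f b₀, Nat.card ↥(B ⊓ Subgroup.centralizer ({a} : Set S)) = 4 ∧ f ∈ A ∧ f ∈ B ∧ f ≠ 1 ∧
      b₀ ∈ B ∧ ⁅a, b₀⁆ = f ∧ ∀ b ∈ B, ⁅a, b⁆ = 1 ∨ ⁅a, b⁆ = f := by
  obtain ⟨f, b₀, hK4, hfB, hf1, -, hb₀, hbf, hall⟩ :=
    h.eight.invol_data (by rw [h.asq a ha]; exact Subgroup.one_mem _) haC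
  refine ⟨f, b₀, hK4, h.self f fun a' ha' => ?_, hfB, hf1, hb₀, hbf, hall⟩
  have hac : Commute a' a := h.acomm a' ha' a ha
  have key : a' * f * a'⁻¹ = ⁅a, a' * b₀ * a'⁻¹⁆ := by
    rw [← hbf]
    simp only [commutatorElement_def]
    have e1 : a' * a = a * a' := hac.eq
    calc a' * (a * b₀ * a⁻¹ * b₀⁻¹) * a'⁻¹
        = (a' * a) * b₀ * (a' * a)⁻¹ * (a' * b₀ * a'⁻¹)⁻¹ := by group
      _ = a * (a' * b₀ * a'⁻¹) * a⁻¹ * (a' * b₀ * a'⁻¹)⁻¹ := by rw [e1]; group
  rcases hall _ (h.eight.conj_mem hb₀ a') with e | e <;> rw [e] at key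
  · exact absurd (by simpa using key) hf1
  · exact (mul_inv_eq_iff_eq_mul.1 key).symm

omit hC in
theorem conj_C {x : S} (hx : x ∈ Subgroup.centralizer (B : Set S)) {b : S} (hb : b ∈ B) (s : S) :
    s * (x * b) * s⁻¹ = ⁅s, x⁆ * x * (⁅s, b⁆ * b) := by
  simp only [commutatorElement_def]; group

omit hC in
theorem bracket_mul_C {x y : S} (hx : x ∈ Subgroup.centralizer (B : Set S)) {a : S}
    (hy : ⁅a, y⁆ ∈ B) : ⁅a, x * y⁆ = ⁅a, x⁆ * ⁅a, y⁆ := by
  have e := comm_C hx hy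
  calc ⁅a, x * y⁆ = ⁅a, x⁆ * (x * ⁅a, y⁆ * x⁻¹) := by simp only [commutatorElement_def]; group
    _ = ⁅a, x⁆ * ⁅a, y⁆ := by rw [e, mul_inv_cancel_right]

omit hC in
theorem fixed_bracket {a x : S} (ha : a ∈ A) (hb : ⁅a, x⁆ ∈ B) : a * ⁅a, x⁆ = ⁅a, x⁆ * a := by
  have h1 : a * ⁅a, x⁆ * a⁻¹ = (a * a) * x * (a * a)⁻¹ * (a * x * a⁻¹)⁻¹ := by
    simp only [commutatorElement_def]; group
  rw [h.asq a ha, one_mul, inv_one, mul_one] at h1
  have h2 : x * (a * x * a⁻¹)⁻¹ = ⁅a, x⁆⁻¹ := by simp only [commutatorElement_def]; group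
  rw [h2, h.eight.inv_eq hb, mul_inv_eq_iff_eq_mul] at h1
  exact h1

/-- The key fact: brackets with elements outside `B` avoid the brackets with `B`. -/
theorem bracket_ne {x : S} (hx : x ∈ Subgroup.centralizer (B : Set S)) (hxB : x ∉ B)
    (hxA : ∀ a ∈ A, ⁅a, x⁆ ∈ B) {a : S} (ha : a ∈ A)
    (haC : a ∉ Subgroup.centralizer (B : Set S)) {b : S} (hb : b ∈ B) : ⁅a, x⁆ ≠ ⁅a, b⁆ := by
  intro he
  set x₁ := x * b with hx₁
  have hx₁C : x₁ ∈ Subgroup.centralizer (B : Set S) := mul_mem hx (h.B_le hb)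
  have hx₁B : x₁ ∉ B := fun e => hxB ((B.mul_mem_cancel_right hb).1 e)
  have hx₁A : ∀ a' ∈ A, ⁅a', x₁⁆ ∈ B := fun a' ha' => by
    rw [h.bracket_mul_C hx (h.eight.bracket_mem hb a')]
    exact B.mul_mem (hxA a' ha') (h.eight.bracket_mem hb a')
  have hax : a * x₁ = x₁ * a := by
    rw [← Eight.bracket_eq_one, h.bracket_mul_C hx (h.eight.bracket_mem hb a), he,
      h.eight.sq _ (h.eight.bracket_mem hb a)]
  obtain ⟨f, b₀, hK4, hfA, hfB, hf1, -, -, -⟩ := h.exists_four hC ha haC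
  set K := B ⊓ Subgroup.centralizer ({a} : Set S) with hK
  have memK : ∀ y, y ∈ B → a * y = y * a → y ∈ K := fun y hy e =>
    ⟨hy, Subgroup.mem_centralizer_singleton_iff.2 e.symm⟩
  by_cases hKA : ∀ w ∈ K, ∀ a' ∈ A, w * a' = a' * w
  · -- `A` is generated by `K` and `a`
    have hKA' : K ≤ A := fun w hw => h.self w (hKA w hw)
    have e : A ⊓ Subgroup.centralizer ({x₁} : Set S) = A := by
      refine h.A_eq_of_five inf_le_left ?_
      have hle : K ≤ A ⊓ Subgroup.centralizer ({x₁} : Set S) := fun w hw =>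
        ⟨hKA' hw, Subgroup.mem_centralizer_singleton_iff.2 (comm_C hx₁C hw.1).symm⟩
      have h1 := Subgroup.card_le_of_le hle
      by_contra hle4
      have heq := Subgroup.eq_of_le_of_card_ge hle (by omega)
      have haK : a ∈ K := heq ▸ Subgroup.mem_inf.2
        ⟨ha, Subgroup.mem_centralizer_singleton_iff.2 hax⟩
      exact haC (h.B_le haK.1)
    refine hx₁B (h.fixed_mem hC hx₁C fun a' ha' => ?_)
    have : a' ∈ A ⊓ Subgroup.centralizer ({x₁} : Set S) := e.symm ▸ ha'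
    exact (Subgroup.mem_centralizer_singleton_iff.1 this.2).symm
  push Not at hKA
  obtain ⟨w, hw, a₂, ha₂, hw2⟩ := hKA
  set u := ⁅a₂, w⁆ with hu
  have haw : a * w = w * a := (Subgroup.mem_centralizer_singleton_iff.1 hw.2).symm
  have haa : a₂ * a = a * a₂ := h.acomm _ ha₂ _ ha
  have hafix : ∀ y, a * y = y * a → a * ⁅a₂, y⁆ = ⁅a₂, y⁆ * a := by
    intro y hy
    have c1 : Commute a a₂ := haa.symm
    have c2 : Commute a y := hy
    rw [commutatorElement_def]
    exact (((c1.mul_right c2).mul_right c1.inv_right).mul_right c2.inv_right).eq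
  set P := K ⊓ Subgroup.centralizer ({a₂} : Set S) with hP
  have memP : ∀ y, y ∈ B → a * y = y * a → a₂ * y = y * a₂ → y ∈ P := fun y hy e1 e2 =>
    ⟨memK y hy e1, Subgroup.mem_centralizer_singleton_iff.2 e2.symm⟩
  have hP2 : Nat.card P ≤ 2 := by
    have hlt : P ≠ K := fun e => hw2 (by
      have : w ∈ P := e.symm ▸ hw
      exact (Subgroup.mem_centralizer_singleton_iff.1 this.2))
    have hd := Subgroup.card_dvd_of_le (inf_le_left : P ≤ K)
    rw [hK4] at hd
    have hle := Nat.le_of_dvd (by norm_num) hd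
    have hne : Nat.card P ≠ 4 := fun e =>
      hlt (Subgroup.eq_of_le_of_card_ge inf_le_left (by rw [hK4, e]))
    interval_cases Nat.card P <;> simp_all (config := {decide := true})
  have huB : u ∈ B := h.eight.bracket_mem hw.1 a₂
  have huP : u ∈ P := memP u huB (hafix w haw) (h.fixed_bracket ha₂ huB)
  have hu1 : u ≠ 1 := fun e => hw2 (Eight.bracket_eq_one |>.1 e).symm
  have hbP : ⁅a₂, x₁⁆ ∈ P :=
    memP _ (hx₁A a₂ ha₂) (hafix x₁ hax) (h.fixed_bracket ha₂ (hx₁A a₂ ha₂))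
  -- adjust `x₁` by `w`
  obtain ⟨x₂, hx₂C, hx₂B, hax₂, ha₂x₂⟩ : ∃ x₂, x₂ ∈ Subgroup.centralizer (B : Set S) ∧ x₂ ∉ B ∧
      a * x₂ = x₂ * a ∧ a₂ * x₂ = x₂ * a₂ := by
    by_cases e1 : ⁅a₂, x₁⁆ = 1
    · exact ⟨x₁, hx₁C, hx₁B, hax, Eight.bracket_eq_one |>.1 e1⟩
    refine ⟨x₁ * w, mul_mem hx₁C (h.B_le hw.1), fun e => hx₁B ((B.mul_mem_cancel_right hw.1).1 e),
      (Commute.mul_right (show Commute a x₁ from hax) haw).eq, ?_⟩
    have e2 : ⁅a₂, x₁⁆ = u := by
      have hc : Nat.card P = 2 := by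
        have := finset_card_le P ({u} : Finset S) (by simpa using huP)
        have h1 : 1 < Nat.card P := by
          rw [Subgroup.one_lt_card_iff_ne_bot]
          intro hb'; rw [hb', Subgroup.mem_bot] at huP; exact hu1 huP
        omega
      obtain ⟨v, -, huniq⟩ := (Nat.card_eq_two_iff' (1 : P)).1 hc
      have h1 := huniq ⟨u, huP⟩ fun e => hu1 (congrArg Subtype.val e)
      have h2 := huniq ⟨_, hbP⟩ fun e => e1 (congrArg Subtype.val e)
      exact congrArg Subtype.val (h2.trans h1.symm)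
    rw [← Eight.bracket_eq_one, h.bracket_mul_C hx₁C huB, e2, ← hu, h.eight.sq u huB]
  refine hx₂B (h.fixed_mem hC hx₂C fun a' ha' => ?_)
  obtain ⟨u₀, hu₀A, hu₀B, hu₀1⟩ := h.exists_central
  have memQ : ∀ y ∈ A, y * x₂ = x₂ * y → y ∈ A ⊓ Subgroup.centralizer ({x₂} : Set S) :=
    fun y hy e => ⟨hy, Subgroup.mem_centralizer_singleton_iff.2 e⟩
  have q1 := memQ a ha hax₂
  have q2 := memQ u₀ hu₀A (comm_C hx₂C hu₀B).symm
  have q3 := memQ a₂ ha₂ ha₂x₂
  have hwfix : ∀ y, y ∈ B → y * w = w * y := fun y hy => h.eight.comm y hy w hw.1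
  have ne1 : a₂ ≠ 1 := fun e => hw2 (by rw [e]; simp)
  have ne2 : a₂ ≠ u₀ := fun e => hw2 (by rw [e]; exact (hwfix _ hu₀B).symm)
  have ne3 : a₂ ≠ a := fun e => hw2 (by rw [e]; exact haw.symm)
  have ne4 : a₂ ≠ u₀ * a := fun e => hw2 (by
    rw [e, mul_assoc, haw, ← mul_assoc, ← mul_assoc, hwfix _ hu₀B])
  have ne5 : a ≠ 1 := fun e => haC (e ▸ Subgroup.one_mem _)
  have ne6 : a ≠ u₀ := fun e => haC (e ▸ h.B_le hu₀B)
  have ne7 : u₀ * a ≠ 1 := fun e => ne6 (by
    rw [← h.A_inv hu₀A]; exact eq_inv_of_mul_eq_one_right e)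
  have ne8 : u₀ * a ≠ u₀ := fun e => ne5 (mul_eq_left.1 e)
  have ne9 : u₀ * a ≠ a := fun e => hu₀1 (mul_eq_right.1 e)
  classical
  have hcard : ({a₂, u₀ * a, a, u₀, 1} : Finset S).card = 5 := by
    rw [Finset.card_insert_of_notMem, Finset.card_insert_of_notMem,
      Finset.card_insert_of_notMem, Finset.card_insert_of_notMem, Finset.card_singleton]
    all_goals simp only [Finset.mem_insert, Finset.mem_singleton, not_or]
    · exact hu₀1
    · exact ⟨ne6, ne5⟩
    · exact ⟨ne9, ne8, ne7⟩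
    · exact ⟨ne4, ne3, ne2, ne1⟩
  have h5 := finset_card_le (A ⊓ Subgroup.centralizer ({x₂} : Set S))
    ({a₂, u₀ * a, a, u₀, 1} : Finset S) (by
      simp only [Finset.mem_insert, Finset.mem_singleton]
      rintro y (rfl | rfl | rfl | rfl | rfl)
      exacts [q3, mul_mem q2 q1, q1, q2, Subgroup.one_mem _])
  have e := h.A_eq_of_five (K := A ⊓ Subgroup.centralizer ({x₂} : Set S)) inf_le_left (by omega)
  have : a' ∈ A ⊓ Subgroup.centralizer ({x₂} : Set S) := e.symm ▸ ha'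
  exact (Subgroup.mem_centralizer_singleton_iff.1 this.2).symm

end Setup

end Cfsg.Agent.Harada
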