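import Cfsg.Agent.Harada.SelfCentralEight

/-!
# Sectional rank at most four from a self-centralizing and a normal eight-group
-/

set_option autoImplicit false
set_option linter.all false
set_option maxHeartbeats 1000000

namespace Cfsg.Agent.Harada

open scoped commutatorElement

universe u

variable {S : Type u} [Group S] [Finite S]

namespace Setup

variable {A B : Subgroup S} (h : Setup A B)
include h

theorem inter_big {H N : Subgroup S} (e : Elem2 H N) (hbig : 16 * Nat.card N < Nat.card H) :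
    8 * Nat.card ↥(N ⊓ Subgroup.centralizer (B : Set S)) ≤
      Nat.card ↥(H ⊓ Subgroup.centralizer (B : Set S)) := by
  have h32 := big_of_lt h.two hbig
  have hq := h.eight.quotient_bound h.two e
  have hpos : 0 < Nat.card N := Nat.card_pos
  nlinarith

omit h in
theorem inter_comm {H N K : Subgroup S} (e : Elem2 H N) (hK : K.Normal) {g k : S} (hg : g ∈ H)
    (hk : k ∈ H) (hkK : k ∈ K) : ⁅g, k⁆ ∈ N ⊓ K :=
  ⟨by rw [commutatorElement_def]; exact e.comm g hg k hk,
    by rw [commutatorElement_def]; exact K.mul_mem (hK.conj_mem k hkK g) (K.inv_mem hkK)⟩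

theorem bound_small (hCB : Subgroup.centralizer (B : Set S) = B) {H N : Subgroup S}
    (e : Elem2 H N) : Nat.card H ≤ 16 * Nat.card N := by
  by_contra hbig
  have hbig : 16 * Nat.card N < Nat.card H := Nat.lt_of_not_le hbig
  have h8 := h.inter_big e hbig
  rw [hCB] at h8
  have hle : Nat.card ↥(H ⊓ B) ≤ 8 := by
    rw [← h.eight.card]; exact Subgroup.card_le_of_le inf_le_right
  have hN1 : Nat.card ↥(N ⊓ B) = 1 := by
    have : 0 < Nat.card ↥(N ⊓ B) := Nat.card_pos
    omega
  have hBH : B ≤ H := inf_eq_right.1 (Subgroup.eq_of_le_of_card_ge inf_le_right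
    (by rw [h.eight.card]; omega))
  rw [Subgroup.card_eq_one] at hN1
  have hHC : H ≤ B := fun g hg => hCB ▸ Subgroup.mem_centralizer_iff.2 fun b hb => by
    have := inter_comm e h.eight.norm hg (hBH hb) hb
    rw [hN1, Subgroup.mem_bot, Eight.bracket_eq_one] at this
    exact this.symm
  have := Subgroup.card_le_of_le hHC
  rw [h.eight.card] at this
  have : 0 < Nat.card N := Nat.card_pos
  omega

/-- The step above `B` in the centralizer of `B`. -/
structure Step (c : S) (D : Subgroup S) : Prop where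
  cC : c ∈ Subgroup.centralizer (B : Set S)
  cB : c ∉ B
  csq : c * c ∈ B
  cs : ∀ s : S, ⁅s, c⁆ ∈ B
  norm : D.Normal
  le : B ≤ D
  cD : c ∈ D
  card : Nat.card D = 16
  mem : ∀ x : S, x ∈ D ↔ x ∈ B ∨ c⁻¹ * x ∈ B

theorem exists_Step (hC : Subgroup.centralizer (B : Set S) ≠ B) :
    ∃ c D, Step (B := B) c D := by
  haveI := h.eight.norm
  haveI := h.C_normal
  obtain ⟨c, hc, hcB, hc2, hcs⟩ := exists_step h.two B _ h.B_le (Ne.symm hC)
  obtain ⟨D, hD, hBD, hcD, hDc, hmem⟩ := exists_double B hcB hc2 hcs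
  exact ⟨c, D, hc, hcB, hc2, fun s => by rw [commutatorElement_def]; exact hcs s, hD, hBD, hcD,
    by rw [hDc, h.eight.card], hmem⟩

variable {c : S} {D : Subgroup S}

theorem step_le (st : Step (B := B) c D) : D ≤ Subgroup.centralizer (B : Set S) := fun x hx => by
  rcases (st.mem x).1 hx with e | e
  · exact h.B_le e
  · have := mul_mem st.cC (h.B_le e); simpa using this

/-- If the centralizer of `B` is larger than `D`, the square of `c` is not a bracket. -/
theorem exists_good (hC : Subgroup.centralizer (B : Set S) ≠ B) (st : Step (B := B) c D)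
    (hD : Subgroup.centralizer (B : Set S) ≠ D) :
    ∃ a ∈ A, a ∉ Subgroup.centralizer (B : Set S) ∧ ∀ b ∈ B, c * c ≠ ⁅a, b⁆ := by
  haveI := st.norm
  haveI := h.C_normal
  obtain ⟨y, hy, hyD, -, hys⟩ := exists_step h.two D _ (h.step_le st) (Ne.symm hD)
  have hys' : ∀ a, ⁅a, y⁆ ∈ D := fun a => by rw [commutatorElement_def]; exact hys a
  by_cases hall : ∀ a ∈ A, ⁅a, y⁆ ∈ B
  · exfalso
    obtain ⟨a, ha, haC⟩ := SetLike.not_le_iff_exists.1 (h.not_le hC)
    obtain ⟨f, b₀, hK4, hfA, hfB, hf1, hb₀, hbf, -⟩ := h.exists_four hC ha haC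
    set K := B ⊓ Subgroup.centralizer ({a} : Set S) with hK
    have memK : ∀ x, ⁅a, x⁆ ∈ B → ⁅a, x⁆ ∈ K := fun x hx =>
      ⟨hx, Subgroup.mem_centralizer_singleton_iff.2 (h.fixed_bracket ha hx).symm⟩
    have hc1 : ⁅a, c⁆ ∈ K := memK c (st.cs a)
    have hy1 : ⁅a, y⁆ ∈ K := memK y (hall a ha)
    have hf' : f ∈ K := hbf ▸ memK b₀ (hbf ▸ hfB)
    have hyB : y ∉ B := fun e => hyD (st.le e)
    have n1 : ∀ b ∈ B, ⁅a, c⁆ ≠ ⁅a, b⁆ := fun b hb =>
      h.bracket_ne hC st.cC st.cB (fun a _ => st.cs a) ha haC hb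
    have n2 : ∀ b ∈ B, ⁅a, y⁆ ≠ ⁅a, b⁆ := fun b hb => h.bracket_ne hC hy hyB hall ha haC hb
    have hc0 : ⁅a, c⁆ ≠ 1 := by simpa using n1 1 B.one_mem
    have hy0 : ⁅a, y⁆ ≠ 1 := by simpa using n2 1 B.one_mem
    have hcf : ⁅a, c⁆ ≠ f := hbf ▸ n1 b₀ hb₀
    have hyf : ⁅a, y⁆ ≠ f := hbf ▸ n2 b₀ hb₀
    -- the product `y * c`
    have hycC : y * c ∈ Subgroup.centralizer (B : Set S) := mul_mem hy st.cC
    have hycB : y * c ∉ B := fun e => hyD (by
      have := D.mul_mem (st.le e) (D.inv_mem st.cD)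
      simpa using this)
    have hyc : ∀ a' ∈ A, ⁅a', y * c⁆ ∈ B := fun a' ha' => by
      rw [h.bracket_mul_C hy (st.cs a')]; exact B.mul_mem (hall a' ha') (st.cs a')
    have n3 : ∀ b ∈ B, ⁅a, y * c⁆ ≠ ⁅a, b⁆ := fun b hb => h.bracket_ne hC hycC hycB hyc ha haC hb
    rw [h.bracket_mul_C hy (st.cs a)] at n3
    -- `K` has only four elements
    have d1 : f * ⁅a, c⁆ ≠ 1 := fun e => hcf (by
      rw [← h.eight.inv_eq hfB]; exact eq_inv_of_mul_eq_one_right e)
    have d2 : f * ⁅a, c⁆ ≠ f := fun e => hc0 (mul_eq_left.1 e)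
    have d3 : f * ⁅a, c⁆ ≠ ⁅a, c⁆ := fun e => hf1 (mul_eq_right.1 e)
    have hy2 : ⁅a, y⁆ ≠ ⁅a, c⁆ := fun e => n3 1 B.one_mem (by
      rw [e, h.eight.sq _ (st.cs a)]; simp)
    have hy3 : ⁅a, y⁆ ≠ f * ⁅a, c⁆ := fun e => n3 b₀ hb₀ (by
      rw [e, mul_assoc, h.eight.sq _ (st.cs a), mul_one, hbf])
    classical
    have hcard : ({⁅a, y⁆, f * ⁅a, c⁆, ⁅a, c⁆, f, 1} : Finset S).card = 5 := by
      rw [Finset.card_insert_of_notMem, Finset.card_insert_of_notMem,
        Finset.card_insert_of_notMem, Finset.card_insert_of_notMem, Finset.card_singleton]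
      all_goals simp only [Finset.mem_insert, Finset.mem_singleton, not_or]
      · exact hf1
      · exact ⟨hcf, hc0⟩
      · exact ⟨d3, d2, d1⟩
      · exact ⟨hy3, hy2, hyf, hy0⟩
    have h5 := finset_card_le K ({⁅a, y⁆, f * ⁅a, c⁆, ⁅a, c⁆, f, 1} : Finset S) (by
      simp only [Finset.mem_insert, Finset.mem_singleton]
      rintro x (rfl | rfl | rfl | rfl | rfl)
      exacts [hy1, K.mul_mem hf' hc1, hc1, hf', K.one_mem])
    omega
  · push Not at hall
    obtain ⟨a, ha, hay⟩ := hall
    have haC : a ∉ Subgroup.centralizer (B : Set S) := fun e => hay (by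
      rw [Eight.bracket_eq_one.2 (comm_C hy (h.mem_B hC ha e)).symm]
      exact B.one_mem)
    obtain ⟨b, hb, heq⟩ : ∃ b ∈ B, ⁅a, y⁆ = c * b := by
      rcases (st.mem _).1 (hys' a) with e | e
      · exact absurd e hay
      · exact ⟨_, e, (mul_inv_cancel_left c _).symm⟩
    refine ⟨a, ha, haC, fun b' hb' hγ => ?_⟩
    have hβ := st.cs a
    have hb1 := h.eight.bracket_mem hb a
    have h1 : a * y * a⁻¹ = c * b * y := by
      rw [← heq]; simp only [commutatorElement_def]; group
    have h2 : y = a * (c * b * y) * a⁻¹ := by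
      rw [← h1]
      calc y = (a * a) * y * (a * a)⁻¹ := by rw [h.asq a ha]; simp
        _ = _ := by group
    have h3 : a * (c * b * y) * a⁻¹ = ⁅a, c⁆ * c * (⁅a, b⁆ * b) * (c * b * y) := by
      calc a * (c * b * y) * a⁻¹ = (a * (c * b) * a⁻¹) * (a * y * a⁻¹) := by group
        _ = _ := by rw [h1, conj_C h st.cC hb]
    rw [h3] at h2
    have h4 : ⁅a, c⁆ * c * (⁅a, b⁆ * b) * (c * b) = 1 := by
      have := congrArg (· * y⁻¹) h2
      simpa [mul_assoc] using this.symm
    have c1 := comm_C st.cC (B.mul_mem hb1 hb)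
    have h5 : ⁅a, c⁆ * (⁅a, b⁆ * b) * (c * c) * b = 1 := by
      rw [← h4]
      calc ⁅a, c⁆ * (⁅a, b⁆ * b) * (c * c) * b = ⁅a, c⁆ * ((⁅a, b⁆ * b) * c) * (c * b) := by group
        _ = _ := by rw [← c1]; group
    have h6 : ⁅a, c⁆ = (⁅a, b⁆ * b) * (c * c) * b := by
      have hx : (⁅a, b⁆ * b) * (c * c) * b ∈ B := B.mul_mem (B.mul_mem (B.mul_mem hb1 hb) st.csq) hb
      rw [← h.eight.inv_eq hx]
      refine eq_inv_of_mul_eq_one_left ?_
      rw [← h5]; group
    refine h.bracket_ne hC st.cC st.cB (fun a _ => st.cs a) ha haC (B.mul_mem hb hb') ?_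
    rw [h.eight.bracket_mul hb hb', ← hγ, h6, mul_assoc _ (c * c),
      h.eight.comm (c * c) st.csq b hb, ← mul_assoc, mul_assoc _ b b, h.eight.sq b hb, mul_one]

/-- The quotient by `B` then has maximal class. -/
theorem bound_large (hC : Subgroup.centralizer (B : Set S) ≠ B) (st : Step (B := B) c D)
    (hD : Subgroup.centralizer (B : Set S) ≠ D) {H N : Subgroup S}
    (e : Elem2 H N) : Nat.card H ≤ 16 * Nat.card N := by
  classical
  obtain ⟨a, ha, haC, hγ⟩ := h.exists_good hC st hD
  haveI := h.eight.norm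
  let π : S →* S ⧸ B := QuotientGroup.mk' B
  have key : ∀ x, x ∈ B ↔ π x = 1 := fun x => (QuotientGroup.eq_one_iff x).symm
  obtain ⟨f, b₀, hK4, hfA, hfB, hf1, hb₀, hbf, hall⟩ := h.exists_four hC ha haC
  set K := B ⊓ Subgroup.centralizer ({a} : Set S) with hK
  have memK : ∀ x, x ∈ B → a * x = x * a → x ∈ K := fun x hx he =>
    ⟨hx, Subgroup.mem_centralizer_singleton_iff.2 he.symm⟩
  -- the square of `c`
  set γ := c * c with hγdef
  have hγfix : ∀ s : S, s * γ * s⁻¹ = γ := fun s => by
    have e1 : s * c * s⁻¹ = ⁅s, c⁆ * c := by simp only [commutatorElement_def]; group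
    calc s * γ * s⁻¹ = (s * c * s⁻¹) * (s * c * s⁻¹) := by rw [hγdef]; group
      _ = (⁅s, c⁆ * ⁅s, c⁆) * (c * c) := by
          rw [e1]
          calc ⁅s, c⁆ * c * (⁅s, c⁆ * c) = ⁅s, c⁆ * (c * ⁅s, c⁆) * c := by group
            _ = _ := by rw [comm_C st.cC (st.cs s)]; group
      _ = γ := by rw [h.eight.sq _ (st.cs s), one_mul]
  have hγA : γ ∈ A := h.self γ fun a' _ => (mul_inv_eq_iff_eq_mul.1 (hγfix a')).symm
  have hγ1 : γ ≠ 1 := by simpa using hγ 1 B.one_mem
  have hγf : γ ≠ f := hbf ▸ hγ b₀ hb₀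
  have hfK : f ∈ K := memK f hfB (h.acomm a ha f hfA)
  have hγK : γ ∈ K := memK γ st.csq (h.acomm a ha γ hγA)
  have hKel : ∀ x ∈ K, x = 1 ∨ x = f ∨ x = γ ∨ x = f * γ := by
    intro x hx
    by_contra hcon
    simp only [not_or] at hcon
    have d1 : f * γ ≠ 1 := fun e => hγf (by
      rw [← h.eight.inv_eq hfB]; exact eq_inv_of_mul_eq_one_right e)
    have d2 : f * γ ≠ f := fun e => hγ1 (mul_eq_left.1 e)
    have d3 : f * γ ≠ γ := fun e => hf1 (mul_eq_right.1 e)
    have hcard : ({x, f * γ, γ, f, 1} : Finset S).card = 5 := by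
      rw [Finset.card_insert_of_notMem, Finset.card_insert_of_notMem,
        Finset.card_insert_of_notMem, Finset.card_insert_of_notMem, Finset.card_singleton]
      all_goals simp only [Finset.mem_insert, Finset.mem_singleton, not_or]
      · exact hf1
      · exact ⟨hγf, hγ1⟩
      · exact ⟨d3, d2, d1⟩
      · exact ⟨hcon.2.2.2, hcon.2.2.1, hcon.2.1, hcon.1⟩
    have h5 := finset_card_le K ({x, f * γ, γ, f, 1} : Finset S) (by
      simp only [Finset.mem_insert, Finset.mem_singleton]
      rintro y (rfl | rfl | rfl | rfl | rfl)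
      exacts [hx, K.mul_mem hfK hγK, hγK, hfK, K.one_mem])
    omega
  have hKA : K ≤ A := fun x hx => by
    rcases hKel x hx with rfl | rfl | rfl | rfl
    exacts [A.one_mem, hfA, hγA, A.mul_mem hfA hγA]
  -- the centralizer of `π a`
  have hcent : ∀ s : S, π s * π a = π a * π s →
      π s = 1 ∨ π s = π c ∨ π s = π a ∨ π s = π c * π a := by
    intro s hs
    have hb₁ : ⁅s, a⁆ ∈ B := by
      rw [key, map_commutatorElement, commutatorElement_eq_one_iff_mul_comm]; exact hs
    set b₁ := ⁅s, a⁆ with hb₁def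
    have hsa : s * a * s⁻¹ = b₁ * a := by
      rw [hb₁def]; simp only [commutatorElement_def]; group
    have hb₁sq : (b₁ * a) * (b₁ * a) = 1 := by
      rw [← hsa]
      calc s * a * s⁻¹ * (s * a * s⁻¹) = s * (a * a) * s⁻¹ := by group
        _ = 1 := by rw [h.asq a ha]; group
    have hb₁a : a * b₁ = b₁ * a := by
      have h1 := eq_inv_of_mul_eq_one_right hb₁sq
      rw [mul_inv_rev, h.A_inv ha, h.eight.inv_eq hb₁] at h1
      exact h1.symm
    have hb₁K := memK b₁ hb₁ hb₁a
    -- `s` centralizes `K`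
    have hsf : s * f = f * s := by
      have hb' := h.eight.conj_mem hb₀ s
      have e1 : s * f * s⁻¹ = (b₁ * a) * (s * b₀ * s⁻¹) * (b₁ * a)⁻¹ * (s * b₀ * s⁻¹)⁻¹ := by
        rw [← hsa, ← hbf]; simp only [commutatorElement_def]; group
      have e2 : (b₁ * a) * (s * b₀ * s⁻¹) * (b₁ * a)⁻¹ = a * (s * b₀ * s⁻¹) * a⁻¹ := by
        have := h.eight.comm b₁ hb₁ _ (h.eight.conj_mem hb' a)
        calc (b₁ * a) * (s * b₀ * s⁻¹) * (b₁ * a)⁻¹
            = b₁ * (a * (s * b₀ * s⁻¹) * a⁻¹) * b₁⁻¹ := by group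
          _ = _ := by rw [this, mul_inv_cancel_right]
      rw [e2] at e1
      rcases hall _ hb' with hb2 | hb2 <;> rw [commutatorElement_def] at hb2 <;> rw [hb2] at e1
      · exfalso; apply hf1; simpa using e1
      · exact mul_inv_eq_iff_eq_mul.1 e1
    have hsγ : s * γ = γ * s := mul_inv_eq_iff_eq_mul.1 (hγfix s)
    -- an element of `D` doing the same to `a`
    obtain ⟨d, hdD, hd⟩ : ∃ d ∈ D, a * d = b₁ * d * a := by
      have step : ∀ x, ⁅a, x⁆ = b₁ → a * x = b₁ * x * a := fun x hx => by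
        rw [← hx]; simp only [commutatorElement_def]; group
      have n1 := fun b hb => h.bracket_ne hC st.cC st.cB (fun a _ => st.cs a) ha haC (b := b) hb
      have hc0 : ⁅a, c⁆ ≠ 1 := by simpa using n1 1 B.one_mem
      have hcf : ⁅a, c⁆ ≠ f := hbf ▸ n1 b₀ hb₀
      have hcK := memK _ (st.cs a) (h.fixed_bracket ha (st.cs a))
      have hcc : ⁅a, c * b₀⁆ = f * ⁅a, c⁆ := by
        rw [h.bracket_mul_C st.cC (hbf ▸ hfB), hbf, h.eight.comm _ (st.cs a) _ hfB]
      have hff : ∀ y : S, f * (f * y) = y := fun y => h.eight.cancel hfB y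
      rcases hKel _ hb₁K with e1 | e1 | e1 | e1
      · exact ⟨1, D.one_mem, step 1 (by rw [e1]; simp)⟩
      · exact ⟨b₀, st.le hb₀, step b₀ (by rw [e1, hbf])⟩
      · rcases hKel _ hcK with e2 | e2 | e2 | e2
        · exact absurd e2 hc0
        · exact absurd e2 hcf
        · exact ⟨c, st.cD, step c (by rw [e1, e2])⟩
        · exact ⟨c * b₀, D.mul_mem st.cD (st.le hb₀), step _ (by rw [hcc, e2, hff, e1])⟩
      · rcases hKel _ hcK with e2 | e2 | e2 | e2
        · exact absurd e2 hc0
        · exact absurd e2 hcf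
        · exact ⟨c * b₀, D.mul_mem st.cD (st.le hb₀), step _ (by rw [hcc, e2, e1])⟩
        · exact ⟨c, st.cD, step c (by rw [e1, e2])⟩
    have hdC := h.step_le st hdD
    set t := d⁻¹ * s with ht
    have hta : t * a = a * t := by
      have hda : d * a = b₁ * a * d := by
        have c1 := comm_C hdC hb₁
        calc d * a = (b₁ * b₁) * (d * a) := by rw [h.eight.sq _ hb₁, one_mul]
          _ = b₁ * (b₁ * d * a) := by group
          _ = b₁ * (a * d) := by rw [hd]
          _ = _ := by group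
      calc t * a = d⁻¹ * (s * a * s⁻¹) * s := by rw [ht]; group
        _ = d⁻¹ * ((b₁ * a * d) * d⁻¹) * s := by rw [hsa]; group
        _ = d⁻¹ * ((d * a) * d⁻¹) * s := by rw [hda]
        _ = a * t := by rw [ht]; group
    have htA : t ∈ A := h.self t fun a' ha' => by
      have hcent : A ⊓ Subgroup.centralizer ({t} : Set S) = A := by
        refine h.A_eq_of_five inf_le_left ?_
        have hle : K ≤ A ⊓ Subgroup.centralizer ({t} : Set S) := fun x hx =>
          ⟨hKA hx, Subgroup.mem_centralizer_singleton_iff.2 (by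
            have cdx := comm_C hdC hx.1
            have csx : s * x = x * s := by
              rcases hKel x hx with rfl | rfl | rfl | rfl
              · simp
              · exact hsf
              · exact hsγ
              · exact ((show Commute s f from hsf).mul_right hsγ).eq
            exact ((show Commute d x from cdx).inv_left.mul_left csx).eq.symm)⟩
        have h1 := Subgroup.card_le_of_le hle
        by_contra hle4
        have heq := Subgroup.eq_of_le_of_card_ge hle (by omega)
        have haK : a ∈ K := heq ▸ Subgroup.mem_inf.2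
          ⟨ha, Subgroup.mem_centralizer_singleton_iff.2 hta.symm⟩
        exact haC (h.B_le haK.1)
      have : a' ∈ A ⊓ Subgroup.centralizer ({t} : Set S) := hcent.symm ▸ ha'
      exact (Subgroup.mem_centralizer_singleton_iff.1 this.2).symm
    have hπd : π d = 1 ∨ π d = π c := by
      rcases (st.mem d).1 hdD with e1 | e1
      · exact Or.inl ((key d).1 e1)
      · right
        have := (key _).1 e1
        rw [map_mul, map_inv, inv_mul_eq_one] at this
        exact this.symm
    have hπt : π t = 1 ∨ π t = π a := by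
      by_cases htB : t ∈ B
      · exact Or.inl ((key t).1 htB)
      · right
        have hidx : (K.subgroupOf A).index = 2 := by
          have := (K.subgroupOf A).card_mul_index
          rw [Nat.card_congr (Subgroup.subgroupOfEquivOfLe hKA).toEquiv, hK4, h.acard] at this
          omega
        have hKB : ∀ x, x ∈ A → x ∈ B → x ∈ K := fun x hxA hxB => memK x hxB (h.acomm a ha x hxA)
        have hm := (Subgroup.mul_mem_iff_of_index_two hidx (a := (⟨a, ha⟩ : A))
          (b := (⟨t, htA⟩ : A))).2 (by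
            rw [Subgroup.mem_subgroupOf, Subgroup.mem_subgroupOf]
            exact iff_of_false (fun hh => haC (h.B_le hh.1)) fun hh => htB hh.1)
        rw [Subgroup.mem_subgroupOf] at hm
        have := (key _).1 hm.1
        rw [Subgroup.coe_mul, map_mul, mul_eq_one_iff_eq_inv] at this
        have e3 : π t⁻¹ = π t := by rw [h.A_inv htA]
        rw [map_inv] at e3
        exact (this.trans e3).symm
    have hs' : π s = π d * π t := by rw [← map_mul, ht, mul_inv_cancel_left]
    rcases hπd with e1 | e1 <;> rcases hπt with e2 | e2 <;> simp only [e1, e2, one_mul, mul_one] at hs' <;> tauto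
  -- maximal class
  have hc1 : π c ≠ 1 := fun e => st.cB ((key c).2 e)
  have ha1 : π a ≠ 1 := fun e => haC (h.B_le ((key a).2 e))
  have hac : π a ≠ π c := fun e => haC (by
    have : a * c⁻¹ ∈ B := (key _).2 (by rw [map_mul, map_inv, e, mul_inv_cancel])
    simpa using mul_mem (h.B_le this) st.cC)
  have hcentral : ∀ q : S ⧸ B, q * π c = π c * q := fun q => by
    obtain ⟨s, rfl⟩ := QuotientGroup.mk'_surjective B q
    rw [← commutatorElement_eq_one_iff_mul_comm, ← map_commutatorElement, ← key]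
    exact st.cs s
  have ha2 : π a * π a = 1 := by rw [← map_mul, h.asq a ha, map_one]
  have hc2 : π c * π c = 1 := by rw [← map_mul, ← key]; exact st.csq
  let F : Bool × Bool → S ⧸ B := fun p => (if p.1 then π c else 1) * (if p.2 then π a else 1)
  have hF : Function.Injective F := by
    have n4 : π c * π a ≠ 1 := fun e => hac (by
      calc π a = (π c * π c) * π a := by rw [hc2, one_mul]
        _ = π c * (π c * π a) := by group
        _ = π c := by rw [e, mul_one])
    have n5 : π c * π a ≠ π c := fun e => ha1 (mul_eq_left.1 e)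
    have n6 : π c * π a ≠ π a := fun e => hc1 (mul_eq_right.1 e)
    rintro ⟨i, j⟩ ⟨k, l⟩ heq
    cases i <;> cases j <;> cases k <;> cases l <;> simp [F] at heq <;>
      first
      | rfl
      | exact absurd heq hc1 | exact absurd heq.symm hc1
      | exact absurd heq ha1 | exact absurd heq.symm ha1
      | exact absurd heq hac | exact absurd heq.symm hac
      | exact absurd heq n4 | exact absurd heq.symm n4
      | exact absurd heq n5 | exact absurd heq.symm n5
      | exact absurd heq n6 | exact absurd heq.symm n6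
      | exact absurd heq (fun e => n4 e) | simp_all
  have hC4 : Nat.card (Subgroup.centralizer ({π a} : Set (S ⧸ B))) = 4 := by
    have hset : ∀ q, q ∈ Subgroup.centralizer ({π a} : Set (S ⧸ B)) ↔ q ∈ Set.range F := by
      intro q
      rw [Subgroup.mem_centralizer_singleton_iff]
      constructor
      · intro hq
        obtain ⟨s, rfl⟩ := QuotientGroup.mk'_surjective B q
        rcases hcent s hq with e1 | e1 | e1 | e1
        · exact ⟨(false, false), (mul_one _).trans e1.symm⟩
        · exact ⟨(true, false), (mul_one _).trans e1.symm⟩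
        · exact ⟨(false, true), (one_mul _).trans e1.symm⟩
        · exact ⟨(true, true), e1.symm⟩
      · rintro ⟨⟨i, j⟩, rfl⟩
        have h1 : Commute (if i then π c else 1) (π a) := by
          split_ifs
          · exact (hcentral (π a)).symm
          · exact Commute.one_left _
        have h2 : Commute (if j then π a else 1) (π a) := by
          split_ifs
          · exact Commute.refl _
          · exact Commute.one_left _
        exact (h1.mul_left h2).eq
    rw [Nat.card_congr (Equiv.subtypeEquivRight hset), Nat.card_range_of_injective hF]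
    simp [Nat.card_prod]
  have hQ2 : IsPGroup 2 (S ⧸ B) := h.two.to_quotient B
  have hna : ∃ x y : S ⧸ B, x * y ≠ y * x := by
    by_contra hcon
    push Not at hcon
    haveI := st.norm
    haveI := h.C_normal
    obtain ⟨y, hy, hyD⟩ : ∃ y ∈ Subgroup.centralizer (B : Set S), y ∉ D := by
      by_contra hc'
      push Not at hc'
      exact hD (le_antisymm hc' (h.step_le st))
    rcases hcent y (hcon _ _) with e1 | e1 | e1 | e1
    · exact hyD (st.le ((key y).2 e1))
    · exact hyD ((st.mem y).2 (Or.inr ((key _).2 (by rw [map_mul, map_inv, e1, inv_mul_cancel]))))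
    · have hm : y⁻¹ * a ∈ B := (key _).2 (by rw [map_mul, map_inv, e1, inv_mul_cancel])
      exact haC (by simpa using mul_mem hy (h.B_le hm))
    · have hm : (c⁻¹ * y)⁻¹ * a ∈ B :=
        (key _).2 (by rw [map_mul, map_inv, map_mul, map_inv, e1]; group)
      have hm' := mul_mem (mul_mem (inv_mem st.cC) hy) (h.B_le hm)
      rw [mul_inv_cancel_left] at hm'
      exact haC hm'
  have hidx := Cfsg.Agent.TwoGroups.index_commutator_of_card_centralizer hQ2 hna hC4
  have hne : commutator (S ⧸ B) ≠ ⊥ := fun e => by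
    obtain ⟨x, y, hxy⟩ := hna
    apply hxy
    have := Subgroup.commutator_mem_commutator (Subgroup.mem_top x) (Subgroup.mem_top y)
    rw [← commutator_def, e, Subgroup.mem_bot, commutatorElement_eq_one_iff_mul_comm] at this
    exact this
  obtain ⟨n, ag, bg, r, md⟩ := Cfsg.Agent.TwoGroups.exists_maxClassData hQ2 hidx hne
  set R := Subgroup.zpowers ag
  -- elementary sections of `S ⧸ B` have order at most four
  set P := H.map π
  set M := N.map π
  have hMP : M ≤ P := Subgroup.map_mono e.le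
  have hPR : Nat.card P ≤ 2 * Nat.card ↥(P ⊓ R) := by
    have := card_le_mul_inter (T := Bool) P R (fun q => decide (q ∈ R)) fun x _ y _ hxy => by
      rw [Subgroup.mul_mem_iff_of_index_two md.toCyclicExt.index_two, Subgroup.inv_mem_iff]
      simpa using hxy
    simpa using this
  have hPM : Nat.card P ≤ 4 * Nat.card M := by
    obtain ⟨g, hg⟩ : ∃ g, P ⊓ R = Subgroup.zpowers g := by
      obtain ⟨k, -, -, hk, -⟩ :=
        Cfsg.Agent.TwoGroups.exists_pow_of_le_zpowers (inf_le_right : P ⊓ R ≤ R)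
      exact ⟨_, hk⟩
    have hgP : g ∈ P ⊓ R := hg ▸ Subgroup.mem_zpowers g
    obtain ⟨x, hx, hxg⟩ := hgP.1
    have hg2 : g ^ 2 ∈ M := by
      rw [← hxg, sq, ← map_mul]
      exact Subgroup.mem_map_of_mem π (e.sq x hx)
    have h1 : Nat.card (Subgroup.zpowers (g ^ 2)) ≤ Nat.card M :=
      Subgroup.card_le_of_le (Subgroup.zpowers_le.2 hg2)
    rw [Nat.card_zpowers, orderOf_pow' _ (by norm_num)] at h1
    have hgcd : Nat.gcd (orderOf g) 2 ≤ 2 := Nat.le_of_dvd (by norm_num) (Nat.gcd_dvd_right _ _)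
    have hgpos : 0 < Nat.gcd (orderOf g) 2 := Nat.gcd_pos_of_pos_right _ (by norm_num)
    have h2 : orderOf g = orderOf g / Nat.gcd (orderOf g) 2 * Nat.gcd (orderOf g) 2 :=
      (Nat.div_mul_cancel (Nat.gcd_dvd_left _ _)).symm
    have h3 : orderOf g ≤ 2 * Nat.card M := by rw [h2]; nlinarith
    rw [hg, Nat.card_zpowers] at hPR
    omega
  by_contra hbig
  have hbig : 16 * Nat.card N < Nat.card H := Nat.lt_of_not_le hbig
  have h32 := big_of_lt h.two hbig
  have decomp : ∀ X : Subgroup S, Nat.card X = Nat.card ↥(X ⊓ B) * Nat.card (X.map π) := fun X => by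
    have h1 := (B.subgroupOf X).card_mul_index
    have h2 : Nat.card (B.subgroupOf X) = Nat.card ↥(X ⊓ B) := by
      have h4 : (X ⊓ B).subgroupOf X = B.subgroupOf X := by ext x; simp [Subgroup.mem_subgroupOf]
      rw [← h4]
      exact Nat.card_congr (Subgroup.subgroupOfEquivOfLe inf_le_left).toEquiv
    have h3 : (B.subgroupOf X).index = Nat.card (X.map π) := by
      have e1 : B.subgroupOf X = (π.comp X.subtype).ker := by
        rw [← MonoidHom.comap_ker, QuotientGroup.ker_mk']; rfl
      have e2 : (π.comp X.subtype).range = X.map π := by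
        rw [MonoidHom.range_comp, Subgroup.range_subtype]
      rw [e1, Subgroup.index_ker, e2]
    rw [h2, h3] at h1
    exact h1.symm
  have hHd := decomp H
  have hNd := decomp N
  have hle : Nat.card ↥(H ⊓ B) ≤ 8 := by
    rw [← h.eight.card]; exact Subgroup.card_le_of_le inf_le_right
  have hposN : 0 < Nat.card ↥(N ⊓ B) := Nat.card_pos
  have hposM : 0 < Nat.card M := Nat.card_pos
  have hN1 : Nat.card ↥(N ⊓ B) = 1 := by
    by_contra hne1
    have : 2 ≤ Nat.card ↥(N ⊓ B) := by omega
    nlinarith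
  have hBH : B ≤ H := inf_eq_right.1 (Subgroup.eq_of_le_of_card_ge inf_le_right (by
    rw [h.eight.card]
    by_contra hlt
    have h4 : Nat.card ↥(H ⊓ B) ≤ 4 := by
      rcases h.eight.card_cases (inf_le_right : H ⊓ B ≤ B) with hc | hc | hc | hc <;> omega
    nlinarith))
  rw [Subgroup.card_eq_one] at hN1
  have hHC : H ≤ Subgroup.centralizer (B : Set S) := fun g hg =>
    Subgroup.mem_centralizer_iff.2 fun b hb => by
      have := inter_comm e h.eight.norm hg (hBH hb) hb
      rw [hN1, Subgroup.mem_bot, Eight.bracket_eq_one] at this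
      exact this.symm
  have hP4 : 4 ≤ Nat.card P := by nlinarith
  -- the central involution lies in `P`
  obtain ⟨q, hq, hq1⟩ : ∃ q ∈ P ⊓ R, q ≠ 1 := by
    by_contra hcon
    push Not at hcon
    have : P ⊓ R = ⊥ := (Subgroup.eq_bot_iff_forall _).2 hcon
    rw [this, Subgroup.card_bot] at hPR
    omega
  obtain ⟨k, hk⟩ := hQ2 q
  obtain ⟨t, htP, ht2, ht1⟩ : ∃ t ∈ P ⊓ R, t * t = 1 ∧ t ≠ 1 := by
    haveI : Fact (Nat.Prime 2) := ⟨Nat.prime_two⟩
    have hd : 2 ∣ Nat.card ↥(P ⊓ R) := by
      rcases ((hQ2.to_subgroup (P ⊓ R))).card_eq_or_dvd with e1 | e1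
      · exfalso
        rw [Subgroup.card_eq_one] at e1
        rw [e1] at hq; exact hq1 hq
      · exact e1
    obtain ⟨t, ht⟩ := exists_prime_orderOf_dvd_card' 2 hd
    refine ⟨t, t.2, ?_, ?_⟩
    · have := pow_orderOf_eq_one t; rw [ht, sq] at this
      exact congrArg Subtype.val this
    · intro e1
      have : t = 1 := Subtype.ext e1
      rw [this] at ht; simp at ht
  have hcenterc : π c ∈ Subgroup.center (S ⧸ B) := Subgroup.mem_center_iff.2 hcentral
  have htcenter : t ∈ Subgroup.center (S ⧸ B) := by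
    obtain ⟨i, rfl⟩ := Subgroup.mem_zpowers_iff.1 htP.2
    rw [md.center_eq, md.mem_zpowers_two_pow_iff (by omega)]
    rw [← zpow_add, md.zpow_eq_one, ← two_mul] at ht2
    have hn := md.two_le
    rw [show n = n - 1 + 1 by omega, Cfsg.Agent.TwoGroups.two_pow_dvd_two_mul_iff] at ht2
    exact ht2
  obtain ⟨v, -, huniq⟩ := (Nat.card_eq_two_iff' (1 : Subgroup.center (S ⧸ B))).1 md.card_center
  have e1 := huniq ⟨t, htcenter⟩ fun e => ht1 (congrArg Subtype.val e)
  have e2 := huniq ⟨π c, hcenterc⟩ fun e => hc1 (congrArg Subtype.val e)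
  have etc : t = π c := congrArg Subtype.val (e1.trans e2.symm)
  obtain ⟨x, hx, hxt⟩ := htP.1
  have hb : c⁻¹ * x ∈ B := (key _).2 (by rw [map_mul, map_inv, hxt, etc, inv_mul_cancel])
  have hcH : c ∈ H := by
    have := H.mul_mem hx (H.inv_mem (hBH hb))
    simpa using this
  apply hγ1
  have : γ ∈ N ⊓ B := ⟨e.sq c hcH, st.csq⟩
  rw [hN1] at this
  exact this

end Setup

end Cfsg.Agent.Harada
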